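import Mathlib
import Cfsg.Prelude.Def_Characters
import Cfsg.Prelude.Def_Blocks
import Cfsg.Agent.Lib.Helper3.Table
import Cfsg.Agent.Lib.Helper76.GaloisChar
import Cfsg.Agent.Lib.Helper80.Inflation
import Cfsg.Agent.Lib.Helper15.LinearMul
import Cfsg.Agent.Lib.Helper78.DefectZero

/-!
# Blichfeldt's theorem on linear groups, character part

`HasFaithful n G`: `G` has a faithful character of degree `n`.
* a group all of whose prime divisors exceed `n` is abelian;
* if `p ≠ q` are primes `> n + 1` dividing `|G|`, then `G` has commuting elements of orders `p`, `q`.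
-/

set_option autoImplicit false

namespace Cfsg.Agent.Lib.Helper35

open Cfsg Cfsg.Agent.Lib Cfsg.Agent.Lib.Helper3
open scoped ComplexConjugate

universe u

/-- `G` has a faithful character of degree `n`. -/
def HasFaithful (n : ℕ) (G : Type u) [Group G] : Prop :=
  ∃ χ : G → ℂ, IsCharacter G χ ∧ (∀ g : G, χ g = χ 1 → g = 1) ∧ χ 1 = (n : ℂ)

theorem HasFaithful.subgroup {n : ℕ} {G : Type u} [Group G] (h : HasFaithful n G)
    (H : Subgroup G) : HasFaithful n H := by
  obtain ⟨χ, h1, h2, h3⟩ := h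
  refine ⟨fun x : H => χ x, IsCharacter.restrict h1 H, ?_, h3⟩
  intro g hg
  exact Subtype.ext (h2 g hg)

/-- decomposition of a character with control of the degrees of the constituents -/
theorem exists_decomp_le {n : ℕ} {G : Type u} [Group G] [Finite G] {χ : G → ℂ}
    (h1 : IsCharacter G χ) (h3 : χ 1 = (n : ℂ)) :
    ∃ (_ : Fintype (IrrCharacter G)) (m : IrrCharacter G → ℕ),
      χ = ∑ ψ, m ψ • (ψ : G → ℂ) ∧ ∀ ψ, m ψ ≠ 0 → charDegree (ψ : G → ℂ) ≤ n := by
  classical
  have : Fintype (IrrCharacter G) := Fintype.ofFinite _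
  obtain ⟨m, hm⟩ := IsCharacter.exists_decomp h1
  refine ⟨this, m, hm, ?_⟩
  intro ψ hψ
  have h4 : (n : ℂ) = ∑ φ : IrrCharacter G, ((m φ * charDegree (φ : G → ℂ) : ℕ) : ℂ) := by
    rw [← h3, hm]
    rw [Finset.sum_apply]
    apply Finset.sum_congr rfl
    intro φ _
    rw [Pi.smul_apply, nsmul_eq_mul, Nat.cast_mul,
      Helper80.char_one_eq_charDegree (IsIrrCharacter.isCharacter φ.2)]
  rw [← Nat.cast_sum] at h4
  have h5 : n = ∑ φ : IrrCharacter G, m φ * charDegree (φ : G → ℂ) := by exact_mod_cast h4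
  rw [h5]
  calc charDegree (ψ : G → ℂ) ≤ m ψ * charDegree (ψ : G → ℂ) :=
        Nat.le_mul_of_pos_left _ (Nat.pos_of_ne_zero hψ)
    _ ≤ _ := Finset.single_le_sum (f := fun φ : IrrCharacter G => m φ * charDegree (φ : G → ℂ))
        (fun _ _ => Nat.zero_le _) (Finset.mem_univ ψ)

/-- A linear group of degree `n` all of whose prime divisors exceed `n` is abelian. -/
theorem HasFaithful.comm {n : ℕ} {G : Type u} [Group G] [Finite G] (h : HasFaithful n G)
    (hπ : ∀ r : ℕ, r.Prime → r ∣ Nat.card G → n < r) (x y : G) : x * y = y * x := by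
  classical
  obtain ⟨χ, h1, h2, h3⟩ := h
  obtain ⟨_, m, hm, hdeg⟩ := exists_decomp_le h1 h3
  have hlin : ∀ ψ : IrrCharacter G, m ψ ≠ 0 → (ψ : G → ℂ) 1 = 1 := by
    intro ψ hψ
    have h4 := hdeg ψ hψ
    have h5 := Helper78.irr_charDegree_dvd_card ψ
    have h6 : charDegree (ψ : G → ℂ) = 1 := by
      by_contra hne
      obtain ⟨r, hr, hrd⟩ := Nat.exists_prime_and_dvd hne
      have h7 := hπ r hr (hrd.trans h5)
      have h8 : r ≤ charDegree (ψ : G → ℂ) :=
        Nat.le_of_dvd (Helper80.charDegree_pos_of_irr ψ.2) hrd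
      omega
    rw [Helper80.char_one_eq_charDegree (IsIrrCharacter.isCharacter ψ.2), h6, Nat.cast_one]
  have key : χ (x * y * x⁻¹ * y⁻¹) = χ 1 := by
    rw [hm]
    simp only [Finset.sum_apply, Pi.smul_apply]
    apply Finset.sum_congr rfl
    intro ψ _
    by_cases hψ : m ψ = 0
    · rw [hψ, zero_smul, zero_smul]
    · have hc := IsIrrCharacter.isCharacter ψ.2
      have hl := hlin ψ hψ
      congr 1
      rw [Helper15.linear_mul hc hl, Helper15.linear_mul hc hl, Helper15.linear_mul hc hl]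
      have e1 : (ψ : G → ℂ) x * (ψ : G → ℂ) x⁻¹ = 1 := by
        rw [← Helper15.linear_mul hc hl, mul_inv_cancel, hl]
      have e2 : (ψ : G → ℂ) y * (ψ : G → ℂ) y⁻¹ = 1 := by
        rw [← Helper15.linear_mul hc hl, mul_inv_cancel, hl]
      rw [hl]
      calc (ψ : G → ℂ) x * (ψ : G → ℂ) y * (ψ : G → ℂ) x⁻¹ * (ψ : G → ℂ) y⁻¹
          = ((ψ : G → ℂ) x * (ψ : G → ℂ) x⁻¹) * ((ψ : G → ℂ) y * (ψ : G → ℂ) y⁻¹) := by ring
        _ = 1 := by rw [e1, e2, one_mul]
  have h9 := h2 _ key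
  have : x * y = (x * y * x⁻¹ * y⁻¹) * (y * x) := by group
  rw [this, h9, one_mul]


theorem exists_int_of_isIntegral_rat' {c : ℂ} (r : ℚ) (hr : c = (r : ℂ)) (h : IsIntegral ℤ c) :
    ∃ z : ℤ, c = (z : ℂ) := by
  rw [hr] at h
  have h1 : IsIntegral ℤ r := by
    have : ((r : ℚ) : ℂ) = algebraMap ℚ ℂ r := rfl
    rw [this] at h
    exact (isIntegral_algebraMap_iff (algebraMap ℚ ℂ).injective).mp h
  obtain ⟨z, hz⟩ := IsIntegrallyClosed.isIntegral_iff.mp h1
  refine ⟨z, ?_⟩
  rw [hr, ← hz]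
  simp

theorem eq_card_of_pow_invariant {d p : ℕ} (hp : p.Prime) (hd : d + 1 < p) (μ : Fin d → ℂ)
    (hμ : ∀ i, μ i ^ p = 1) (c : ℂ) (hc : ∀ j, 1 ≤ j → j < p → ∑ i, μ i ^ j = c)
    (hint : IsIntegral ℤ c) : c = d := by
  classical
  set m0 : ℕ := (Finset.univ.filter (fun i => μ i = 1)).card with hm0
  have hm0d : m0 ≤ d := by
    have := Finset.card_le_univ (Finset.univ.filter (fun i => μ i = 1))
    simpa using this
  have h1 : ∑ j ∈ Finset.range p, ∑ i, μ i ^ j = (p : ℂ) * m0 := by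
    rw [Finset.sum_comm]
    have : ∀ i, ∑ j ∈ Finset.range p, μ i ^ j = if μ i = 1 then (p : ℂ) else 0 := by
      intro i
      split_ifs with h
      · simp [h]
      · have h2 := mul_neg_geom_sum (μ i) p
        rw [hμ i, sub_self] at h2
        rcases mul_eq_zero.mp h2 with h3 | h3
        · exact absurd (sub_eq_zero.mp h3).symm h
        · exact h3
    simp only [this]
    rw [← Finset.sum_filter, Finset.sum_const, nsmul_eq_mul, mul_comm]
  have h2 : ∑ j ∈ Finset.range p, ∑ i, μ i ^ j = (d : ℂ) + ((p : ℂ) - 1) * c := by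
    obtain ⟨k, rfl⟩ : ∃ k, p = k + 1 := ⟨p - 1, by have := hp.pos; omega⟩
    rw [Finset.sum_range_succ']
    have : ∀ j ∈ Finset.range k, ∑ i, μ i ^ (j + 1) = c := by
      intro j hj
      exact hc (j + 1) (by omega) (by have := Finset.mem_range.mp hj; omega)
    rw [Finset.sum_congr rfl this]
    simp
    ring
  have h3 : (d : ℂ) + ((p : ℂ) - 1) * c = (p : ℂ) * m0 := h2.symm.trans h1
  have hp1 : ((p : ℂ) - 1) ≠ 0 := by
    have : (p : ℂ) ≠ 1 := by exact_mod_cast hp.one_lt.ne'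
    exact sub_ne_zero.mpr this
  obtain ⟨z, hz⟩ := exists_int_of_isIntegral_rat' (((p : ℚ) * m0 - d) / ((p : ℚ) - 1)) (by
    push_cast
    field_simp
    linear_combination h3) hint
  rw [hz] at h3
  have h4 : (d : ℤ) + ((p : ℤ) - 1) * z = (p : ℤ) * m0 := by exact_mod_cast h3
  have hz' : z = d := by
    have hpd : (d : ℤ) + 1 < p := by exact_mod_cast hd
    have hm : (m0 : ℤ) ≤ d := by exact_mod_cast hm0d
    have hm' : (0 : ℤ) ≤ m0 := Int.natCast_nonneg _
    -- t = m0 - z
    have h5 : (d : ℤ) = m0 + ((p : ℤ) - 1) * (m0 - z) := by linarith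
    have h6 : (m0 : ℤ) - z = 0 := by
      rcases lt_trichotomy ((m0 : ℤ) - z) 0 with h | h | h
      · nlinarith
      · exact h
      · nlinarith
    rw [h6] at h5
    linarith
  rw [hz, hz']
  simp

theorem pow_eq_self_of_modEq {G : Type u} [Group G] [Finite G] {p k : ℕ} (hp : p.Prime)
    (hk : k ≡ 1 [MOD ordCompl[p] (Nat.card G)]) (g : G) (hg : ¬ p ∣ orderOf g) : g ^ k = g := by
  have h1 : orderOf g ∣ ordProj[p] (Nat.card G) * ordCompl[p] (Nat.card G) := by
    rw [Nat.ordProj_mul_ordCompl_eq_self]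
    exact orderOf_dvd_natCard g
  have h2 : (orderOf g).Coprime (ordProj[p] (Nat.card G)) :=
    Nat.Coprime.pow_right _ (((Nat.Prime.coprime_iff_not_dvd hp).mpr hg).symm)
  have h3 : orderOf g ∣ ordCompl[p] (Nat.card G) := h2.dvd_of_dvd_mul_left h1
  have h4 : k ≡ 1 [MOD orderOf g] := hk.of_dvd h3
  have := pow_eq_pow_iff_modEq.mpr h4
  rwa [pow_one] at this

/-- A character of degree `< p - 1` fixed by the Galois automorphisms that fix the `p'`-roots of unity
contains the elements of order `p` in its kernel. -/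
theorem ker_of_invariant {G : Type u} [Group G] [Finite G] {ψ : G → ℂ} (hψ : IsCharacter G ψ)
    {p : ℕ} (hp : p.Prime) (hd : charDegree ψ + 1 < p)
    (hinv : ∀ k : ℕ, k.Coprime (Nat.card G) → k ≡ 1 [MOD ordCompl[p] (Nat.card G)] →
      ∀ g, ψ (g ^ k) = ψ g) (u : G) (hu : orderOf u = p) : ψ u = ψ 1 := by
  have hint := IsCharacter.isIntegral hψ u
  have hone := Helper80.char_one_eq_charDegree hψ
  obtain ⟨n, ρ, rfl⟩ := hψ
  obtain ⟨μ, h1, h2⟩ := Helper76.exists_char_eigenvalues ρ u p hp.pos (by rw [← hu, pow_orderOf_eq_one])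
  have hfin : Module.finrank ℂ (Fin n → ℂ) = charDegree ρ.character := by
    have h3 := h2 0
    simp only [pow_zero, Finset.sum_const, Finset.card_univ, Fintype.card_fin, nsmul_eq_mul,
      mul_one] at h3
    rw [hone] at h3
    exact_mod_cast h3.symm
  have key := eq_card_of_pow_invariant hp (by rw [hfin]; exact hd) μ h1 (ρ.character u) ?_ hint
  · rw [key, hone, hfin]
  · intro j hj1 hjp
    rw [← h2 j]
    have hco : p.Coprime (ordCompl[p] (Nat.card G)) :=
      (Nat.Prime.coprime_iff_not_dvd hp).mpr (Nat.not_dvd_ordCompl hp Nat.card_pos.ne')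
    obtain ⟨k, hk1, hk2⟩ := Nat.chineseRemainder hco j 1
    have hkp : k.Coprime p := by
      have h3 : Nat.gcd k p = Nat.gcd j p := hk1.gcd_eq
      have h4 : Nat.gcd j p = 1 :=
        ((Nat.Prime.coprime_iff_not_dvd hp).mpr (Nat.not_dvd_of_pos_of_lt hj1 hjp)).symm
      rw [Nat.Coprime, h3, h4]
    have hkm : k.Coprime (ordCompl[p] (Nat.card G)) := by
      have h3 : Nat.gcd k _ = Nat.gcd 1 _ := hk2.gcd_eq
      rw [Nat.Coprime, h3, Nat.gcd_one_left]
    have hkN : k.Coprime (Nat.card G) := by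
      rw [← Nat.ordProj_mul_ordCompl_eq_self (Nat.card G) p]
      exact Nat.Coprime.mul_right (Nat.Coprime.pow_right _ hkp) hkm
    have h5 := hinv k hkN hk2 u
    have h6 : u ^ k = u ^ j := pow_eq_pow_iff_modEq.mpr (by rw [hu]; exact hk1)
    rw [← h6, h5]

/-- **Key lemma.** If no element of `G` has order divisible by `pq`, an irreducible character of degree
`< min (p, q) - 1` contains all elements of order `p`, or all elements of order `q`, in its kernel. -/
theorem ker_p_or_ker_q {G : Type u} [Group G] [Finite G] {ψ : G → ℂ} (hψ : IsIrrCharacter G ψ)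
    {p q : ℕ} (hp : p.Prime) (hq : q.Prime)
    (hdp : charDegree ψ + 1 < p) (hdq : charDegree ψ + 1 < q)
    (hno : ∀ g : G, ¬ (p ∣ orderOf g ∧ q ∣ orderOf g)) :
    (∀ u : G, orderOf u = p → ψ u = ψ 1) ∨ (∀ v : G, orderOf v = q → ψ v = ψ 1) := by
  classical
  have := Fintype.ofFinite G
  by_contra hcon
  push Not at hcon
  obtain ⟨⟨u, hu, hu'⟩, ⟨v, hv, hv'⟩⟩ := hcon
  have hc := IsIrrCharacter.isCharacter hψ
  have hk : ∃ k : ℕ, k.Coprime (Nat.card G) ∧ k ≡ 1 [MOD ordCompl[p] (Nat.card G)] ∧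
      ∃ g, ψ (g ^ k) ≠ ψ g := by
    by_contra h
    push Not at h
    exact hu' (ker_of_invariant hc hp hdp h u hu)
  have hl : ∃ k : ℕ, k.Coprime (Nat.card G) ∧ k ≡ 1 [MOD ordCompl[q] (Nat.card G)] ∧
      ∃ g, ψ (g ^ k) ≠ ψ g := by
    by_contra h
    push Not at h
    exact hv' (ker_of_invariant hc hq hdq h v hv)
  obtain ⟨k, hk1, hk2, g1, hg1⟩ := hk
  obtain ⟨l, hl1, hl2, g2, hg2⟩ := hl
  have hψk := Helper76.isIrrCharacter_pow_coprime hψ hk1
  have hψl := Helper76.isIrrCharacter_pow_coprime hψ hl1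
  have hnek : (fun g => ψ (g ^ k)) ≠ ψ := fun h => hg1 (congrFun h g1)
  have hnel : (fun g => ψ (g ^ l)) ≠ ψ := fun h => hg2 (congrFun h g2)
  have hzero : classInner (ψ - fun g => ψ (g ^ k)) (ψ - fun g => ψ (g ^ l)) = 0 := by
    unfold classInner
    rw [Finset.sum_eq_zero, mul_zero]
    intro g _
    by_cases hgp : p ∣ orderOf g
    · have hgq : ¬ q ∣ orderOf g := fun h => hno g ⟨hgp, h⟩
      simp only [Pi.sub_apply]
      rw [pow_eq_self_of_modEq hq hl2 g hgq, sub_self, map_zero, mul_zero]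
    · simp only [Pi.sub_apply]
      rw [pow_eq_self_of_modEq hp hk2 g hgp, sub_self, zero_mul]
  rw [classInner_sub_left, classInner_sub_right, classInner_sub_right, classInner_irr_self hψ,
    classInner_irr_ne hψ hψl hnel.symm, classInner_irr_ne hψk hψ hnek] at hzero
  by_cases hkl : (fun g => ψ (g ^ k)) = fun g => ψ (g ^ l)
  · rw [hkl, classInner_irr_self hψl] at hzero
    norm_num at hzero
  · rw [classInner_irr_ne hψk hψl hkl] at hzero
    norm_num at hzero

/-- **Blichfeldt.** A linear group of degree `n` whose order is divisible by two primes `p ≠ q` larger than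
`n + 1` contains commuting elements of orders `p` and `q`. -/
theorem HasFaithful.exists_commute {n : ℕ} {G : Type u} [Group G] [Finite G] (h : HasFaithful n G)
    {p q : ℕ} (hp : p.Prime) (hq : q.Prime) (hnp : n + 1 < p) (hnq : n + 1 < q)
    (hpG : p ∣ Nat.card G) (hqG : q ∣ Nat.card G) :
    ∃ u v : G, orderOf u = p ∧ orderOf v = q ∧ u * v = v * u := by
  classical
  by_cases hno : ∃ g : G, p ∣ orderOf g ∧ q ∣ orderOf g
  · obtain ⟨g, h1, h2⟩ := hno
    have h0 : orderOf g ≠ 0 := (orderOf_pos g).ne'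
    exact ⟨g ^ (orderOf g / p), g ^ (orderOf g / q), orderOf_pow_orderOf_div h0 h1,
      orderOf_pow_orderOf_div h0 h2, ((Commute.refl g).pow_pow _ _).eq⟩
  · push Not at hno
    have : Fact p.Prime := ⟨hp⟩
    have : Fact q.Prime := ⟨hq⟩
    obtain ⟨u, hu⟩ := exists_prime_orderOf_dvd_card' p hpG
    obtain ⟨v, hv⟩ := exists_prime_orderOf_dvd_card' q hqG
    refine ⟨u, v, hu, hv, ?_⟩
    obtain ⟨χ, h1, h2, h3⟩ := h
    obtain ⟨_, m, hm, hdeg⟩ := exists_decomp_le h1 h3
    have key : χ (u * v * u⁻¹ * v⁻¹) = χ 1 := by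
      rw [hm]
      simp only [Finset.sum_apply, Pi.smul_apply]
      apply Finset.sum_congr rfl
      intro ψ _
      by_cases hψ : m ψ = 0
      · rw [hψ, zero_smul, zero_smul]
      · congr 1
        have hc := IsIrrCharacter.isCharacter ψ.2
        have hd := hdeg ψ hψ
        have hN := Helper80.charKer_normal hc
        have hmem : u * v * u⁻¹ * v⁻¹ ∈ Helper80.charKer (ψ : G → ℂ) hc := by
          rcases ker_p_or_ker_q ψ.2 hp hq (by omega) (by omega)
            (fun g hg => hno g hg.1 hg.2) with h4 | h4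
          · have hu' : u ∈ Helper80.charKer (ψ : G → ℂ) hc := h4 u hu
            have e : u * v * u⁻¹ * v⁻¹ = u * (v * u⁻¹ * v⁻¹) := by group
            rw [e]
            exact mul_mem hu' (hN.conj_mem _ (inv_mem hu') v)
          · have hv' : v ∈ Helper80.charKer (ψ : G → ℂ) hc := h4 v hv
            exact mul_mem (hN.conj_mem _ hv' u) (inv_mem hv')
        exact hmem
    have h9 := h2 _ key
    have : u * v = (u * v * u⁻¹ * v⁻¹) * (v * u) := by group
    rw [this, h9, one_mul]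

end Cfsg.Agent.Lib.Helper35
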