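import Mathlib
import Cfsg.Agent.Lib.Helper35.BlichA
import Cfsg.Agent.Lib.Helper35.Transfer
import Cfsg.Agent.Lib.Helper76.SylowAux
import Cfsg.Agent.Lib.Helper51.PGroup
import Cfsg.Agent.Lib.Lead.Cores

/-!
# Blichfeldt's theorem on linear groups, group-theoretic part

A linear group of degree `n` has an abelian Hall `π`-subgroup for `π = {primes > n + 1}`.
-/

set_option autoImplicit false

namespace Cfsg.Agent.Lib.Helper35

open Cfsg Cfsg.Agent.Lib Subgroup
open scoped Pointwise

universe u

/-- Some Sylow `p`-subgroup commutes elementwise with some Sylow `q`-subgroup. -/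
def CommPair (p q : ℕ) (G : Type u) [Group G] : Prop :=
  ∃ A B : Subgroup G, IsPGroup p A ∧ ¬ p ∣ A.index ∧ IsPGroup q B ∧ ¬ q ∣ B.index ∧
    ∀ x ∈ A, ∀ y ∈ B, x * y = y * x

theorem CommPair.symm {p q : ℕ} {G : Type u} [Group G] (h : CommPair p q G) : CommPair q p G := by
  obtain ⟨A, B, h1, h2, h3, h4, h5⟩ := h
  exact ⟨B, A, h3, h4, h1, h2, fun x hx y hy => (h5 y hy x hx).symm⟩

theorem CommPair.of_subgroup {p q : ℕ} (hp : p.Prime) (hq : q.Prime) {G : Type u} [Group G]
    (H : Subgroup G) (hpH : ¬ p ∣ H.index) (hqH : ¬ q ∣ H.index) (h : CommPair p q H) :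
    CommPair p q G := by
  obtain ⟨A, B, h1, h2, h3, h4, h5⟩ := h
  refine ⟨A.map H.subtype, B.map H.subtype, h1.map _, ?_, h3.map _, ?_, ?_⟩
  · rw [index_map_subtype]
    exact hp.not_dvd_mul h2 hpH
  · rw [index_map_subtype]
    exact hq.not_dvd_mul h4 hqH
  · rintro _ ⟨x, hx, rfl⟩ _ ⟨y, hy, rfl⟩
    exact congrArg Subtype.val (h5 x hx y hy)

/-- `π`-subgroups of a linear group are abelian, ambient version. -/
theorem HasFaithful.comm_subgroup {n : ℕ} {G : Type u} [Group G] [Finite G] (h : HasFaithful n G)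
    (H : Subgroup G) (hπ : ∀ r : ℕ, r.Prime → r ∣ Nat.card H → n < r) :
    ∀ x ∈ H, ∀ y ∈ H, x * y = y * x := by
  intro x hx y hy
  exact congrArg Subtype.val ((h.subgroup H).comm hπ ⟨x, hx⟩ ⟨y, hy⟩)

theorem prime_eq_of_dvd_card_pGroup {p r : ℕ} (hp : p.Prime) (hr : r.Prime) {G : Type u} [Group G]
    [Finite G] {A : Subgroup G} (hA : IsPGroup p A) (h : r ∣ Nat.card A) : r = p := by
  have : Fact p.Prime := ⟨hp⟩
  obtain ⟨k, hk⟩ := IsPGroup.iff_card.mp hA
  rw [hk] at h
  exact (Nat.prime_dvd_prime_iff_eq hr hp).mp (hr.dvd_of_dvd_pow h)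

theorem HasFaithful.comm_pGroup {n : ℕ} {G : Type u} [Group G] [Finite G] (h : HasFaithful n G)
    {p : ℕ} (hp : p.Prime) (hnp : n < p) (A : Subgroup G) (hA : IsPGroup p A) :
    ∀ x ∈ A, ∀ y ∈ A, x * y = y * x :=
  h.comm_subgroup A (fun r hr hrA => by rw [prime_eq_of_dvd_card_pGroup hp hr hA hrA]; exact hnp)

/-- The case of a central element of order `p`. -/
theorem commPair_of_central {n : ℕ} {p q : ℕ} (hp : p.Prime) (hq : q.Prime) (hnp : n < p)
    (hnq : n < q) (hpq : p ≠ q) {G : Type u} [Group G] [Finite G] (hG : HasFaithful n G)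
    (IH : ∀ H : Subgroup G, H ≠ ⊤ → CommPair p q H) (z : G) (hz : z ∈ center G)
    (hzo : orderOf z = p) : CommPair p q G := by
  classical
  have : Fact p.Prime := ⟨hp⟩
  have : Fact q.Prime := ⟨hq⟩
  -- `z` is not a commutator product
  have hz' : z ∉ commutator G := by
    intro hzc
    let P : Sylow p G := default
    obtain ⟨h1, h2⟩ := pow_index_mem_commutator (P : Subgroup G) hz hzc
    have hPc := hG.comm_pGroup hp hnp P P.2
    have h3 : commutator (P : Subgroup G) = ⊥ := by
      rw [commutator_def, commutator_eq_bot_iff_le_centralizer]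
      intro x _
      rw [mem_centralizer_iff]
      intro y _
      exact Subtype.ext (hPc y y.2 x x.2)
    rw [h3, mem_bot] at h2
    have h4 : z ^ (P : Subgroup G).index = 1 := congrArg Subtype.val h2
    have h5 := orderOf_dvd_of_pow_eq_one h4
    rw [hzo] at h5
    exact P.not_dvd_index h5
  set m : ℕ := ordCompl[p] (Nat.card G) with hm
  let f : G →* Abelianization G := (powMonoidHom m).comp Abelianization.of
  have hf : ∀ g, f g = Abelianization.of (g ^ m) := by
    intro g
    simp [f]
  set M : Subgroup G := f.ker with hM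
  have hMn : M.Normal := MonoidHom.normal_ker f
  have hzM : z ∉ M := by
    intro h
    rw [hM, MonoidHom.mem_ker, hf, ← MonoidHom.mem_ker, Abelianization.ker_of] at h
    apply hz'
    have hco : Nat.Coprime m p :=
      ((Nat.Prime.coprime_iff_not_dvd hp).mpr (Nat.not_dvd_ordCompl hp Nat.card_pos.ne')).symm
    have h2 : z ^ p ∈ commutator G := by rw [← hzo, pow_orderOf_eq_one]; exact one_mem _
    have h3 : z ^ (Nat.gcd m p) ∈ commutator G := by
      have h4 : (z ^ (Nat.gcd m p : ℕ) : G) = z ^ ((Nat.gcd m p : ℕ) : ℤ) := (zpow_natCast _ _).symm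
      rw [h4, Nat.gcd_eq_gcd_ab, zpow_add, zpow_mul, zpow_mul, zpow_natCast, zpow_natCast]
      exact mul_mem (zpow_mem h _) (zpow_mem h2 _)
    rw [hco, pow_one] at h3
    exact h3
  have hMtop : M ≠ ⊤ := fun h => hzM (h ▸ mem_top z)
  have hqM : ¬ q ∣ M.index := by
    let Q : Sylow q G := default
    have hQM : (Q : Subgroup G) ≤ M := by
      intro y hy
      rw [hM, MonoidHom.mem_ker, hf]
      have h1 : Nat.card (Q : Subgroup G) ∣ m := by
        have h2 : Nat.card (Q : Subgroup G) ∣ ordProj[p] (Nat.card G) * m := by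
          rw [hm, Nat.ordProj_mul_ordCompl_eq_self]
          exact card_subgroup_dvd_card _
        have h3 : (Nat.card (Q : Subgroup G)).Coprime (ordProj[p] (Nat.card G)) := by
          rw [Q.card_eq_multiplicity]
          exact Nat.Coprime.pow _ _ ((Nat.coprime_primes hq hp).mpr hpq.symm)
        exact h3.dvd_of_dvd_mul_left h2
      have h4 : y ^ Nat.card (Q : Subgroup G) = 1 := by
        have := pow_card_eq_one' (x := (⟨y, hy⟩ : (Q : Subgroup G)))
        exact congrArg Subtype.val this
      obtain ⟨c, hc⟩ := h1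
      rw [hc, pow_mul, h4, one_pow, map_one]
    exact fun h => Q.not_dvd_index (h.trans (index_dvd_of_le hQM))
  obtain ⟨A0, B0, hA0, hA0i, hB0, hB0i, hcomm⟩ := IH M hMtop
  set A : Subgroup G := A0.map M.subtype with hA
  set B : Subgroup G := B0.map M.subtype with hB
  have hAp : IsPGroup p A := hA0.map _
  have hBq : IsPGroup q B := hB0.map _
  have hBi : ¬ q ∣ B.index := by
    rw [hB, index_map_subtype]
    exact hq.not_dvd_mul hB0i hqM
  have hAB : ∀ x ∈ A, ∀ y ∈ B, x * y = y * x := by
    rintro _ ⟨x, hx, rfl⟩ _ ⟨y, hy, rfl⟩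
    exact congrArg Subtype.val (hcomm x hx y hy)
  obtain ⟨P', hP'⟩ := hAp.exists_le_sylow
  have hP'c := hG.comm_pGroup hp hnp P' P'.2
  by_cases hC : centralizer (A : Set G) = ⊤
  · -- `A` is central
    have hAc : ∀ x ∈ A, ∀ g : G, x * g = g * x := by
      intro x hx g
      have : g ∈ centralizer (A : Set G) := hC ▸ mem_top g
      exact mem_centralizer_iff.mp this x hx
    let B0' : Sylow q M := hB0.toSylow hB0i
    have hfr : normalizer ((B0.map M.subtype : Subgroup G) : Set G) ⊔ M = ⊤ :=
      Sylow.normalizer_sup_eq_top B0'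
    set Nn : Subgroup G := normalizer (B : Set G) with hNn
    have hpN : ¬ p ∣ Nn.index := by
      apply Helper76.not_dvd_index_of_sup Nn M
      · rw [hfr, index_top]
        exact hp.one_lt.ne' ∘ Nat.dvd_one.mp
      · have h1 : A0 ≤ Nn.subgroupOf M := by
          intro x hx
          rw [mem_subgroupOf, hNn, mem_normalizer_iff]
          intro b
          have hxA : (x : G) ∈ A := ⟨x, hx, rfl⟩
          have e : (x : G) * b * (x : G)⁻¹ = b := by
            rw [hAc _ hxA b, mul_inv_cancel_right]
          rw [e]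
        exact fun h => hA0i (h.trans (index_dvd_of_le h1))
    obtain ⟨P'', hP''⟩ := Helper76.exists_sylow_le_of_not_dvd_index Nn hpN
    have hcard := Helper51.card_sup_mul_card_inf_of_le_normalizer (P'' : Subgroup G) B hP''
    have hH := hG.comm_subgroup ((P'' : Subgroup G) ⊔ B) (by
      intro r hr hrd
      have h1 : r ∣ Nat.card (P'' : Subgroup G) * Nat.card B := by
        rw [← hcard]
        exact Dvd.dvd.mul_right hrd _
      rcases (Nat.Prime.dvd_mul hr).mp h1 with h2 | h2
      · rw [prime_eq_of_dvd_card_pGroup hp hr P''.2 h2]; exact hnp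
      · rw [prime_eq_of_dvd_card_pGroup hq hr hBq h2]; exact hnq)
    exact ⟨P'', B, P''.2, P''.not_dvd_index, hBq, hBi, fun x hx y hy =>
      hH x (le_sup_left (a := (P'' : Subgroup G)) hx) y (le_sup_right (b := B) hy)⟩
  · apply CommPair.of_subgroup hp hq _ _ _ (IH _ hC)
    · have h1 : (P' : Subgroup G) ≤ centralizer (A : Set G) := by
        intro x hx
        rw [mem_centralizer_iff]
        intro a ha
        exact hP'c a (hP' ha) x hx
      exact fun h => P'.not_dvd_index (h.trans (index_dvd_of_le h1))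
    · have h1 : B ≤ centralizer (A : Set G) := by
        intro y hy
        rw [mem_centralizer_iff]
        intro a ha
        exact hAB a ha y hy
      exact fun h => hBi (h.trans (index_dvd_of_le h1))

theorem card_lt_of_ne_top {G : Type u} [Group G] [Finite G] {H : Subgroup G} (h : H ≠ ⊤) :
    Nat.card H < Nat.card G := by
  have h1 : Nat.card H ≤ Nat.card G := card_le_card_group H
  rcases h1.lt_or_eq with h2 | h2
  · exact h2
  · exact absurd (card_eq_iff_eq_top H |>.mp h2) h

/-- In a linear group of degree `n`, Sylow subgroups for two primes `> n + 1` can be chosen commuting. -/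
theorem commPair_aux {n : ℕ} {p q : ℕ} (hp : p.Prime) (hq : q.Prime) (hnp : n + 1 < p)
    (hnq : n + 1 < q) (hpq : p ≠ q) :
    ∀ N : ℕ, ∀ (G : Type u) [Group G] [Finite G], Nat.card G = N → HasFaithful n G →
      CommPair p q G := by
  intro N
  induction N using Nat.strong_induction_on with
  | _ N ih =>
  intro G _ _ hN hG
  classical
  have : Fact p.Prime := ⟨hp⟩
  have : Fact q.Prime := ⟨hq⟩
  have IH : ∀ H : Subgroup G, H ≠ ⊤ → CommPair p q H := by
    intro H hH
    exact ih (Nat.card H) (hN ▸ card_lt_of_ne_top hH) H rfl (hG.subgroup H)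
  by_cases hpG : p ∣ Nat.card G
  swap
  · let Q : Sylow q G := default
    refine ⟨⊥, Q, IsPGroup.of_bot, by rwa [index_bot], Q.2, Q.not_dvd_index, ?_⟩
    intro x hx y _
    rw [mem_bot.mp hx, one_mul, mul_one]
  by_cases hqG : q ∣ Nat.card G
  swap
  · let P : Sylow p G := default
    refine ⟨P, ⊥, P.2, P.not_dvd_index, IsPGroup.of_bot, by rwa [index_bot], ?_⟩
    intro x _ y hy
    rw [mem_bot.mp hy, one_mul, mul_one]
  obtain ⟨u, v, hu, hv, huv⟩ := hG.exists_commute hp hq hnp hnq hpG hqG
  have hup : IsPGroup p (zpowers u) :=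
    Helper76.isPGroup_zpowers_of_orderOf (k := 1) (by rw [hu, pow_one])
  obtain ⟨P, hP⟩ := hup.exists_le_sylow
  have hPc := hG.comm_pGroup hp (by omega) P P.2
  have huP : u ∈ (P : Subgroup G) := hP (mem_zpowers u)
  by_cases hC : centralizer ({u} : Set G) = ⊤
  · apply commPair_of_central hp hq (by omega) (by omega) hpq hG IH u _ hu
    rw [mem_center_iff]
    intro g
    have : g ∈ centralizer ({u} : Set G) := hC ▸ mem_top g
    exact (mem_centralizer_iff.mp this u rfl).symm
  set C : Subgroup G := centralizer ({u} : Set G) with hCdef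
  have hPC : (P : Subgroup G) ≤ C := by
    intro x hx
    rw [hCdef, mem_centralizer_iff]
    intro a ha
    rw [Set.mem_singleton_iff.mp ha]
    exact hPc u huP x hx
  have hvC : v ∈ C := by
    rw [hCdef, mem_centralizer_iff]
    intro a ha
    rw [Set.mem_singleton_iff.mp ha]
    exact huv
  have hpC : ¬ p ∣ C.index := fun h => P.not_dvd_index (h.trans (index_dvd_of_le hPC))
  obtain ⟨A0, B0, hA0, hA0i, hB0, hB0i, hcomm⟩ := IH C hC
  set A : Subgroup G := A0.map C.subtype with hA
  set B : Subgroup G := B0.map C.subtype with hB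
  have hAp : IsPGroup p A := hA0.map _
  have hBq : IsPGroup q B := hB0.map _
  have hAi : ¬ p ∣ A.index := by
    rw [hA, index_map_subtype]
    exact hp.not_dvd_mul hA0i hpC
  have hAB : ∀ x ∈ A, ∀ y ∈ B, x * y = y * x := by
    rintro _ ⟨x, hx, rfl⟩ _ ⟨y, hy, rfl⟩
    exact congrArg Subtype.val (hcomm x hx y hy)
  have hqB : q ∣ Nat.card B := by
    have h1 : q ∣ Nat.card C := by
      have h2 : orderOf (⟨v, hvC⟩ : C) = q := by
        rw [← hv]
        exact Subgroup.orderOf_mk v hvC
      rw [← h2]
      exact orderOf_dvd_natCard _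
    rw [← card_mul_index B0] at h1
    rw [hB, card_map_of_injective C.subtype_injective]
    exact ((Nat.Prime.dvd_mul hq).mp h1).resolve_right hB0i
  obtain ⟨Q, hQ⟩ := hBq.exists_le_sylow
  have hQc := hG.comm_pGroup hq (by omega) Q Q.2
  by_cases hC2 : centralizer (B : Set G) = ⊤
  · obtain ⟨⟨z, hzB⟩, hz⟩ := exists_prime_orderOf_dvd_card' (G := B) q hqB
    have hzo : orderOf z = q := by
      rw [← hz]
      exact (Subgroup.orderOf_mk z hzB).symm
    apply CommPair.symm
    apply commPair_of_central hq hp (by omega) (by omega) hpq.symm hG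
      (fun H hH => (IH H hH).symm) z _ hzo
    rw [mem_center_iff]
    intro g
    have : g ∈ centralizer (B : Set G) := hC2 ▸ mem_top g
    exact (mem_centralizer_iff.mp this z hzB).symm
  · apply CommPair.of_subgroup hp hq _ _ _ (IH _ hC2)
    · have h1 : A ≤ centralizer (B : Set G) := by
        intro x hx
        rw [mem_centralizer_iff]
        intro b hb
        exact (hAB x hx b hb).symm
      exact fun h => hAi (h.trans (index_dvd_of_le h1))
    · have h1 : (Q : Subgroup G) ≤ centralizer (B : Set G) := by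
        intro y hy
        rw [mem_centralizer_iff]
        intro b hb
        exact hQc b (hQ hb) y hy
      exact fun h => Q.not_dvd_index (h.trans (index_dvd_of_le h1))

theorem HasFaithful.commPair {n : ℕ} {G : Type u} [Group G] [Finite G] (hG : HasFaithful n G)
    {p q : ℕ} (hp : p.Prime) (hq : q.Prime) (hnp : n + 1 < p) (hnq : n + 1 < q) (hpq : p ≠ q) :
    CommPair p q G :=
  commPair_aux hp hq hnp hnq hpq _ G rfl hG

/-- The centralizer of a Sylow `p`-subgroup has index prime to `r`. -/
theorem not_dvd_index_centralizer {p r : ℕ} [Fact p.Prime] {G : Type u} [Group G] [Finite G]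
    (P : Sylow p G) (h : CommPair p r G) : ¬ r ∣ (centralizer ((P : Subgroup G) : Set G)).index := by
  obtain ⟨A, B, hA, hAi, _, hBi, hAB⟩ := h
  obtain ⟨g, hg⟩ := MulAction.exists_smul_eq G (hA.toSylow hAi) P
  have hP : ∀ x ∈ (P : Subgroup G), g⁻¹ * x * g ∈ A := by
    intro x hx
    rw [← hg] at hx
    have hx' : x ∈ MulAut.conj g • (A : Subgroup G) := hx
    rw [Subgroup.mem_pointwise_smul_iff_inv_smul_mem] at hx'
    simpa [MulAut.smul_def] using hx'
  have h1 : B.map (MulAut.conj g : G ≃* G).toMonoidHom ≤ centralizer ((P : Subgroup G) : Set G) := by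
    rintro _ ⟨y, hy, rfl⟩
    rw [mem_centralizer_iff]
    intro x hx
    have h2 := hAB _ (hP x hx) y hy
    show x * (g * y * g⁻¹) = g * y * g⁻¹ * x
    calc x * (g * y * g⁻¹) = g * ((g⁻¹ * x * g) * y) * g⁻¹ := by group
      _ = g * (y * (g⁻¹ * x * g)) * g⁻¹ := by rw [h2]
      _ = g * y * g⁻¹ * x := by group
  intro h
  apply hBi
  have h3 := h.trans (index_dvd_of_le h1)
  rwa [show (B.map (MulAut.conj g : G ≃* G).toMonoidHom).index = B.index from
    index_map_equiv B (MulAut.conj g)] at h3

/-- **Blichfeldt.** A linear group of degree `n` has an abelian Hall `π`-subgroup, `π = {primes > n + 1}`. -/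
theorem exists_hall_aux (n : ℕ) :
    ∀ N : ℕ, ∀ (G : Type u) [Group G] [Finite G], Nat.card G = N → HasFaithful n G →
      ∃ A : Subgroup G, (∀ x ∈ A, ∀ y ∈ A, x * y = y * x) ∧
        (∀ r : ℕ, r.Prime → r ∣ Nat.card A → n + 1 < r) ∧
        (∀ r : ℕ, r.Prime → r ∣ A.index → r ≤ n + 1) := by
  intro N
  induction N using Nat.strong_induction_on with
  | _ N ih =>
  intro G _ _ hN hG
  classical
  by_cases hex : ∃ p : ℕ, p.Prime ∧ n + 1 < p ∧ p ∣ Nat.card G
  swap
  · push Not at hex
    refine ⟨⊥, ?_, ?_, ?_⟩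
    · intro x hx y _
      rw [mem_bot.mp hx, one_mul, mul_one]
    · intro r hr hrd
      rw [card_bot] at hrd
      exact absurd (Nat.dvd_one.mp hrd) hr.one_lt.ne'
    · intro r hr hrd
      rw [index_bot] at hrd
      by_contra hlt
      exact hex r hr (by omega) hrd
  obtain ⟨p, hp, hnp, hpG⟩ := hex
  have : Fact p.Prime := ⟨hp⟩
  let P : Sylow p G := default
  have hPc := hG.comm_pGroup hp (by omega) P P.2
  by_cases hC : centralizer ((P : Subgroup G) : Set G) = ⊤
  · -- `P` is central: split it off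
    have hcen : ∀ x ∈ (P : Subgroup G), ∀ g : G, x * g = g * x := by
      intro x hx g
      have : g ∈ centralizer ((P : Subgroup G) : Set G) := hC ▸ mem_top g
      exact mem_centralizer_iff.mp this x hx
    have hPn : (P : Subgroup G).Normal := by
      refine ⟨fun x hx g => ?_⟩
      rw [← hcen x hx g, mul_inv_cancel_right]
      exact hx
    have hNC : normalizer ((P : Subgroup G) : Set G) ≤ centralizer ((P : Subgroup G) : Set G) := by
      rw [hC]; exact le_top
    have hcompl := MonoidHom.ker_transferSylow_isComplement' P hNC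
    set K : Subgroup G := (MonoidHom.transferSylow P hNC).ker with hK
    have hcard := hcompl.card_mul_card
    have hPcard : p ∣ Nat.card (P : Subgroup G) := by
      rw [P.card_eq_multiplicity]
      exact dvd_pow_self p
        ((Nat.Prime.factorization_pos_of_dvd hp Nat.card_pos.ne' hpG).ne')
    have hKlt : Nat.card K < Nat.card G := by
      rw [← hcard]
      have h1 : 1 < Nat.card (P : Subgroup G) :=
        lt_of_lt_of_le hp.one_lt (Nat.le_of_dvd Nat.card_pos hPcard)
      exact lt_mul_of_one_lt_right Nat.card_pos h1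
    obtain ⟨A0, hA0c, hA0π, hA0i⟩ := ih (Nat.card K) (hN ▸ hKlt) K rfl (hG.subgroup K)
    set A1 : Subgroup G := A0.map K.subtype with hA1
    have hA1card : Nat.card A1 = Nat.card A0 := card_map_of_injective K.subtype_injective
    have hπ : ∀ r : ℕ, r.Prime → r ∣ Nat.card (A1 ⊔ (P : Subgroup G) : Subgroup G) → n + 1 < r := by
      intro r hr hrd
      have h1 := hrd.trans (Lead.card_sup_dvd A1 (P : Subgroup G))
      rcases (Nat.Prime.dvd_mul hr).mp h1 with h2 | h2
      · exact hA0π r hr (hA1card ▸ h2)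
      · rw [prime_eq_of_dvd_card_pGroup hp hr P.2 h2]; exact hnp
    refine ⟨A1 ⊔ (P : Subgroup G), ?_, hπ, ?_⟩
    · exact hG.comm_subgroup _ (fun r hr hrd => by have := hπ r hr hrd; omega)
    · intro r hr hrd
      have h1 : r ∣ A1.index := hrd.trans (index_dvd_of_le le_sup_left)
      have h2 : r ∣ (P : Subgroup G).index := hrd.trans (index_dvd_of_le le_sup_right)
      rw [hA1, index_map_subtype] at h1
      rcases (Nat.Prime.dvd_mul hr).mp h1 with h3 | h3
      · exact hA0i r hr h3
      · exfalso
        have h4 : K.index = Nat.card (P : Subgroup G) := hcompl.symm.index_eq_card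
        rw [h4] at h3
        rw [prime_eq_of_dvd_card_pGroup hp hr P.2 h3] at h2
        exact P.not_dvd_index h2
  · set C : Subgroup G := centralizer ((P : Subgroup G) : Set G) with hCdef
    have hCi : ∀ r : ℕ, r.Prime → n + 1 < r → ¬ r ∣ C.index := by
      intro r hr hnr
      by_cases hrp : r = p
      · subst hrp
        have h1 : (P : Subgroup G) ≤ C := by
          intro x hx
          rw [hCdef, mem_centralizer_iff]
          intro a ha
          exact hPc a ha x hx
        exact fun h => P.not_dvd_index (h.trans (index_dvd_of_le h1))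
      · exact not_dvd_index_centralizer P (hG.commPair hp hr hnp hnr (Ne.symm hrp))
    obtain ⟨A0, hA0c, hA0π, hA0i⟩ :=
      ih (Nat.card C) (hN ▸ card_lt_of_ne_top hC) C rfl (hG.subgroup C)
    refine ⟨A0.map C.subtype, ?_, ?_, ?_⟩
    · rintro _ ⟨x, hx, rfl⟩ _ ⟨y, hy, rfl⟩
      exact congrArg Subtype.val (hA0c x hx y hy)
    · intro r hr hrd
      rw [card_map_of_injective C.subtype_injective] at hrd
      exact hA0π r hr hrd
    · intro r hr hrd
      rw [index_map_subtype] at hrd
      rcases (Nat.Prime.dvd_mul hr).mp hrd with h3 | h3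
      · exact hA0i r hr h3
      · by_contra hlt
        exact hCi r hr (by omega) h3

theorem HasFaithful.exists_hall {n : ℕ} {G : Type u} [Group G] [Finite G] (hG : HasFaithful n G) :
    ∃ A : Subgroup G, (∀ x ∈ A, ∀ y ∈ A, x * y = y * x) ∧
      (∀ r : ℕ, r.Prime → r ∣ Nat.card A → n + 1 < r) ∧
      (∀ r : ℕ, r.Prime → r ∣ A.index → r ≤ n + 1) :=
  exists_hall_aux n _ G rfl hG

end Cfsg.Agent.Lib.Helper35
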