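import Mathlib
import Cfsg.Prelude.Def_Blocks
import Cfsg.Agent.Lib.Helper35.BlockCover
import Cfsg.Agent.Lib.Helper16.DefectAPI
import Cfsg.Agent.Lib.Helper77.BlockBasic

/-!
# Defect groups of covering blocks: the theorems of Fong and Knörr
-/

set_option autoImplicit false
set_option linter.unusedSectionVars false

namespace Cfsg.Agent.Lib.Helper35

open Cfsg Cfsg.Agent.Lib.Helper15 Cfsg.Agent.Lib.Helper78 Cfsg.Agent.Lib.Helper74
open Cfsg.Agent.Lib.Helper77 (ofFun coeff_ofFun coeff_mul_left coeff_mul_right ma_ext FixedBy SuppIn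
  fixedBy_iff_coeff)
open scoped ComplexConjugate
open MonoidAlgebra

section knorr

variable {G : Type*} [Group G] [Fintype G] (N : Subgroup G) [hN : N.Normal] [Fintype N]
variable {M : Ideal AlgInt}

/-- If `χ₀ ∈ B` lies over `θ₀`, some homogeneous component of the block idempotent of `B` has a
multiple of degree one on which the central character of `θ₀` is a unit. -/
theorem exists_word_unit (hM : M.IsPrime) {B : Set (IrrCharacter G)} (hB : IsPBlock M B)
    {χ₀ : IrrCharacter G} (hχ₀ : χ₀ ∈ B) {θ₀ : IrrCharacter N}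
    (h0 : classInner (fun n : N => (χ₀ : G → ℂ) n) (θ₀ : N → ℂ) ≠ 0) :
    ∃ (t : G ⧸ N) (u : MonoidAlgebra ℂ G), IsInt M u ∧ FixedBy N u ∧
      ¬ MemLocalIdeal M (omega (θ₀ : N → ℂ) (fun n : N => (comp N (eB B) t * u).coeff n)) := by
  classical
  by_contra hcon
  push Not at hcon
  have := Fintype.ofFinite (G ⧸ N)
  set ε := eB B with hε
  let A : G ⧸ N → MonoidAlgebra ℂ G := fun s => comp N ε s
  let good : MonoidAlgebra ℂ G → Prop := fun x => IsInt M x ∧ FixedBy N x
  let small : MonoidAlgebra ℂ G → Prop := fun x => ∃ y, IsJ M y ∧ x * eHat N θ₀ = eHat N θ₀ * y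
  have gA : ∀ t, good (A t) := fun t =>
    ⟨isInt_comp N hM (isInt_eB hM hB) t, fixedBy_comp N (fixedBy_eB N B) t⟩
  have gmul : ∀ x y, good x → good y → good (x * y) := fun x y hx hy =>
    ⟨hx.1.mul hM hy.1, hx.2.mul hy.2⟩
  have g1 : good 1 := ⟨isInt_one hM, Cfsg.Agent.Lib.Helper77.fixedBy_one N⟩
  have hword : ∀ l : List (G ⧸ N), good ((l.map A).prod) ∧ HasDeg N ((l.map A).prod) l.prod := by
    intro l
    induction l with
    | nil => exact ⟨by simpa using g1, by simpa using hasDeg_one N⟩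
    | cons t l ih =>
      simp only [List.map_cons, List.prod_cons]
      exact ⟨gmul _ _ (gA t) ih.1, (hasDeg_comp N ε t).mul N ih.2⟩
  have hcomm : ∀ x, good x → x * eHat N θ₀ = eHat N θ₀ * x := fun x hx =>
    hx.2.commute (suppIn_eHat N θ₀)
  have H : ∀ l : List (G ⧸ N), l ≠ [] → l.prod = 1 → small ((l.map A).prod) := by
    intro l hl hprod
    obtain ⟨hg, hd⟩ := hword l
    rw [hprod] at hd
    have hs := hd.suppIn N
    set w := (l.map A).prod with hw
    have h3 : MemLocalIdeal M (omega (θ₀ : N → ℂ) (fun n : N => w.coeff n)) := by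
      obtain ⟨t, l', rfl⟩ := List.exists_cons_of_ne_nil hl
      have := hcon t ((l'.map A).prod) (hword l').1.1 (hword l').1.2
      rw [hw, List.map_cons, List.prod_cons]
      exact this
    refine ⟨omega (θ₀ : N → ℂ) (fun n : N => w.coeff n) • 1, isJ_smul_one hM h3, ?_⟩
    rw [hcomm w hg, eHat_mul_of_suppIn N θ₀ hs hg.2, mul_smul_comm, mul_one]
  have hsum : ∑ t, A t = ε := sum_comp N ε
  have hsmall := small_pow_card A good small g1 gmul gA
    (by rw [hsum]; exact ⟨isInt_eB hM hB, fixedBy_eB N B⟩)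
    ⟨0, isJ_zero hM, by simp⟩
    (by
      rintro x y ⟨x', hx', hx⟩ ⟨y', hy', hy⟩
      exact ⟨x' + y', hx'.add hM hy', by rw [add_mul, mul_add, hx, hy]⟩)
    (by
      rintro x z ⟨x', hx', hx⟩ hz
      exact ⟨z * x', hz.1.mul_isJ hM hx', by
        rw [mul_assoc, hx, ← mul_assoc, hcomm z hz, mul_assoc]⟩)
    (by
      rintro x z ⟨x', hx', hx⟩ hz
      exact ⟨x' * z, hx'.mul_isInt hM hz.1, by
        rw [mul_assoc, hcomm z hz, ← mul_assoc, hx, mul_assoc]⟩)
    H
  have hidem : IsIdempotentElem ε := eB_mul_self B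
  rw [hsum, hidem.pow_eq (Fintype.card_ne_zero)] at hsmall
  obtain ⟨y, hy, hyeq⟩ := hsmall
  have hu : ε * eHat N θ₀ = (ε * eHat N θ₀) * y := by
    calc ε * eHat N θ₀ = ε * ε * eHat N θ₀ := by rw [hidem.eq]
      _ = ε * (ε * eHat N θ₀) := mul_assoc _ _ _
      _ = ε * (eHat N θ₀ * y) := by rw [hyeq]
      _ = _ := (mul_assoc _ _ _).symm
  have hzero := eq_zero_of_eq_mul hM hy hu
  rw [hcomm ε ⟨isInt_eB hM hB, fixedBy_eB N B⟩] at hzero
  exact eHat_mul_eB_ne_zero N B θ₀ hχ₀ h0 hzero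

omit hN [Fintype N] in
/-- fixed point principle for a coefficient of a product -/
theorem exists_fixed_coeff {p : ℕ} (hM : IsPModular p M) {x u : MonoidAlgebra ℂ G}
    (hx : IsInt M x) (hu : IsInt M u) (R : Subgroup G) (hR : IsPGroup p R)
    (hxf : FixedBy R x) (huf : FixedBy R u) {n : G}
    (hn : R ≤ Subgroup.centralizer ({n} : Set G))
    (h : ¬ MemLocalIdeal M ((x * u).coeff n)) :
    ∃ y, R ≤ Subgroup.centralizer ({y} : Set G) ∧ ¬ MemLocalIdeal M (x.coeff y) := by
  have hMp := pmod_isPrime hM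
  rw [coeff_mul_left] at h
  let act : MulAction R G := MulAction.compHom G ((MulAut.conj (G := G)).comp R.subtype)
  have hsmul : ∀ (r : R) (y : G), r • y = (r : G) * y * (r : G)⁻¹ := fun r y => rfl
  obtain ⟨y, hyfix, hy⟩ := exists_fixed_not_memLocalIdeal hM (Γ := R) (X := G) hR
    (fun y => x.coeff y * u.coeff (y⁻¹ * n))
    (by
      intro r y
      simp only [hsmul]
      rw [(fixedBy_iff_coeff.mp hxf) r r.2 y]
      congr 1
      have hr : (r : G) * n = n * (r : G) :=
        Subgroup.mem_centralizer_singleton_iff.mp (hn r.2)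
      have : ((r : G) * y * (r : G)⁻¹)⁻¹ * n = (r : G) * (y⁻¹ * n) * (r : G)⁻¹ := by
        have hz' : n = (r : G) * n * (r : G)⁻¹ := by rw [hr]; group
        conv_lhs => rw [hz']
        group
      rw [this, (fixedBy_iff_coeff.mp huf) r r.2])
    (fun y => MemLocalRing.mul hMp (hx y) (hu _)) h
  refine ⟨y, ?_, fun hcon => hy (MemLocalIdeal.mul_right hMp hcon (hu _))⟩
  intro r hr
  rw [Subgroup.mem_centralizer_singleton_iff]
  have := hyfix ⟨r, hr⟩
  rw [hsmul] at this
  simp only at this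
  calc r * y = (r * y * r⁻¹) * r := by group
    _ = y * r := by rw [this]

local notation "cjS" => Cfsg.Agent.Lib.Helper16.cj

/-- **Knörr**, the hard inclusion: a defect group of a covered block is contained in a defect group
of the covering block. -/
theorem knorr_le {p : ℕ} [Fact p.Prime] (hM : IsPModular p M) {B : Set (IrrCharacter G)}
    (hB : IsPBlock M B) {b : Set (IrrCharacter N)} (hb : IsPBlock M b) (hc : Covers N B b)
    {D : Subgroup G} (hD : IsDefectGroup p M B D) {Q : Subgroup N} (hQ : IsDefectGroup p M b Q) :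
    ∃ g : G, Q.map N.subtype ≤ cjS g D := by
  classical
  have hMp := pmod_isPrime hM
  obtain ⟨χ₀, hχ₀, θ₀, hθ₀, h0⟩ := hc
  obtain ⟨t, u, hu1, hu2, hw⟩ := exists_word_unit N hMp hB hχ₀ h0
  have hA1 : IsInt M (comp N (eB B) t) := isInt_comp N hMp (isInt_eB hMp hB) t
  have hA2 : FixedBy N (comp N (eB B) t) := fixedBy_comp N (fixedBy_eB N B) t
  set w := comp N (eB B) t * u with hwdef
  have hw1 : IsInt M w := hA1.mul hMp hu1
  have hw2 : FixedBy N w := hA2.mul hu2
  have hcl : IsClassFunction N (fun n : N => w.coeff (n : G)) := by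
    intro g h
    exact (fixedBy_iff_coeff.mp hw2) h h.2 g
  rw [omega_eq_sum_conjClasses (irr_isClassFunction θ₀) hcl] at hw
  obtain ⟨C, hC⟩ : ∃ C : ConjClasses N, ¬ MemLocalIdeal M
      (w.coeff ((Quotient.out C : N) : G) * centralChar (θ₀ : N → ℂ) (Quotient.out C)) := by
    by_contra hcon
    push Not at hcon
    exact hw (MemLocalIdeal.sum hMp _ _ fun C _ => hcon C)
  set n : N := Quotient.out C with hn
  have h1 : ¬ MemLocalIdeal M (w.coeff (n : G)) := fun hcon =>
    hC (MemLocalIdeal.mul_right hMp hcon (memLocalRing_centralChar hMp θ₀ n))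
  have h2 : ¬ MemLocalIdeal M (centralChar (θ₀ : N → ℂ) n) := fun hcon =>
    hC (MemLocalIdeal.mul_left hMp (hw1 _) hcon)
  obtain ⟨m, hm⟩ := Cfsg.Agent.Lib.Helper16.minmax_b hM hb hQ hθ₀ h2
  set R : Subgroup G := (cjS m Q).map N.subtype with hR
  have hRp : IsPGroup p R :=
    (Cfsg.Agent.Lib.Helper16.isPGroup_cj (Cfsg.Agent.Lib.Helper16.IsDefectGroup.isPGroup hQ) m).map _
  have hRN : R ≤ N := by
    rintro _ ⟨z, _, rfl⟩
    exact z.2
  have hRn : R ≤ Subgroup.centralizer ({(n : G)} : Set G) := by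
    rintro _ ⟨z, hz, rfl⟩
    have h3 := Subgroup.mem_centralizer_singleton_iff.mp (hm hz)
    rw [Subgroup.mem_centralizer_singleton_iff]
    exact congrArg Subtype.val h3
  obtain ⟨y, hy1, hy2⟩ := exists_fixed_coeff hM hA1 hu1 R hRp (hA2.mono hRN) (hu2.mono hRN) hRn h1
  have hy3 : ¬ MemLocalIdeal M (blockCoeff B y) := by
    intro hcon
    apply hy2
    rw [coeff_comp]
    split_ifs
    · exact hcon
    · exact memLocalIdeal_zero hMp
  obtain ⟨g, hg⟩ := Cfsg.Agent.Lib.Helper16.minmax_a hM hB hD hy3 R hRp hy1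
  refine ⟨(m : G)⁻¹ * g, ?_⟩
  rintro _ ⟨z, hz, rfl⟩
  have h4 : (m : G) * (z : G) * (m : G)⁻¹ ∈ R :=
    ⟨m * z * m⁻¹, Cfsg.Agent.Lib.Helper16.conj_mem_cj hz, by simp⟩
  have h5 := hg h4
  rw [Cfsg.Agent.Lib.Helper16.mem_cj] at h5 ⊢
  convert h5 using 1
  simp only [Subgroup.coe_subtype]
  group

omit hN [Fintype N] [Fintype G] in
/-- the idempotent of a union of blocks is the sum of the block idempotents -/
theorem exists_block_coeff_of_closed {X : Type*} [Group X] [Fintype X] (hM : M.IsPrime)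
    {A : Set (IrrCharacter X)} (hA : ∀ χ ∈ A, blockOf M (χ : X → ℂ) ⊆ A) {x : X}
    (hx : ¬ MemLocalIdeal M (blockCoeff A x)) :
    ∃ φ ∈ A, ¬ MemLocalIdeal M (blockCoeff (blockOf M (φ : X → ℂ)) x) := by
  classical
  by_contra hcon
  push Not at hcon
  apply hx
  set 𝔅 : Finset (Set (IrrCharacter X)) :=
    (Finset.univ.filter (fun φ : IrrCharacter X => φ ∈ A)).image
      (fun φ : IrrCharacter X => blockOf M (φ : X → ℂ))
    with h𝔅
  have h1 : blockCoeff A x = ∑ b' ∈ 𝔅, blockCoeff b' x := by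
    simp only [blockCoeff_eq_sum]
    rw [← Finset.mul_sum, Finset.sum_comm]
    congr 1
    apply Finset.sum_congr rfl
    intro χ _
    rw [← Finset.sum_mul]
    congr 1
    have h2 : ∀ b' ∈ 𝔅, (if χ ∈ b' then (1 : ℂ) else 0) =
        if b' = blockOf M (χ : X → ℂ) then 1 else 0 := by
      intro b' hb'
      obtain ⟨φ, _, rfl⟩ := Finset.mem_image.mp hb'
      by_cases h : χ ∈ blockOf M (φ : X → ℂ)
      · rw [if_pos h, if_pos (blockOf_eq_of_sameBlock hM h)]
      · rw [if_neg h, if_neg]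
        intro h3
        apply h
        rw [h3]
        exact mem_blockOf_self hM χ
    rw [Finset.sum_congr rfl h2, Finset.sum_ite_eq']
    by_cases h : χ ∈ A
    · rw [if_pos h, if_pos]
      exact Finset.mem_image.mpr ⟨χ, by simpa using h, rfl⟩
    · rw [if_neg h, if_neg]
      intro h3
      obtain ⟨φ, hφ, h4⟩ := Finset.mem_image.mp h3
      apply h
      apply hA φ (by simpa using hφ)
      rw [h4]
      exact mem_blockOf_self hM χ
  rw [h1]
  apply MemLocalIdeal.sum hM
  intro b' hb'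
  obtain ⟨φ, hφ, rfl⟩ := Finset.mem_image.mp hb'
  exact hcon φ (by simpa using hφ)

/-- the idempotent of a conjugate block -/
theorem blockCoeff_blockOf_of_cjIrr_mem (hM : M.IsPrime) {b : Set (IrrCharacter N)}
    (hb : IsPBlock M b) {φ : IrrCharacter N} {g : G} (hg : cjIrr N g φ ∈ b) (n : N) :
    blockCoeff (blockOf M (φ : N → ℂ)) (⟨g * n * g⁻¹, hN.conj_mem n n.2 g⟩ : N) =
      blockCoeff b n := by
  classical
  rw [blockCoeff_eq_sum, blockCoeff_eq_sum]
  congr 1
  conv_rhs => rw [← Equiv.sum_comp (cjIrr N g)]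
  apply Finset.sum_congr rfl
  intro ψ _
  rw [cjIrr_coe, cj_apply_one, cj_apply]
  congr 1
  have : ψ ∈ blockOf M (φ : N → ℂ) ↔ cjIrr N g ψ ∈ b := by
    constructor
    · intro h
      exact IsPBlock.mem_of_sameBlock hM hb hg (sameBlock_cj N g h)
    · intro h
      have h1 := sameBlock_cj N g⁻¹ (IsPBlock.sameBlock hM hb hg h)
      rw [cjIrr_coe, cjIrr_coe, cj_inv_cj, cj_inv_cj] at h1
      exact h1
  simp only [this]

/-- If `B` covers `b`, there is `x ∈ N` at which the idempotent of `b` has a unit coefficient and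
the central character of `B` is a unit. -/
theorem exists_coeff_centralChar_unit (hM : M.IsPrime) {B : Set (IrrCharacter G)}
    (hB : IsPBlock M B) {b : Set (IrrCharacter N)} (hb : IsPBlock M b) (hc : Covers N B b)
    {χ : IrrCharacter G} (hχ : χ ∈ B) :
    ∃ x : N, ¬ MemLocalIdeal M (blockCoeff b x) ∧
      ¬ MemLocalIdeal M (centralChar (χ : G → ℂ) (x : G)) := by
  classical
  set a : G → ℂ := extendByZero N (blockCoeff (conjUnion N b)) with ha_def
  have ha : IsClassFunction G a := extend_blockCoeff_conjUnion_isClassFunction N b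
  have hres : (fun n : N => a (n : G)) = blockCoeff (conjUnion N b) :=
    funext fun n => extendByZero_coe N _ n
  have haR : ∀ g, MemLocalRing M (a g) := by
    intro g
    by_cases hg : g ∈ N
    · rw [ha_def, extendByZero_mem N _ hg]
      exact memLocalRing_blockCoeff_of_closed hM (conjUnion_closed N hM hb) _
    · rw [ha_def, extendByZero_not_mem N _ hg]; exact memLocalRing_zero hM
  obtain ⟨ψ, hψ⟩ := Cfsg.Agent.Lib.Helper80.exists_constituent_restrict χ N
  have hψb : ψ ∈ conjUnion N b :=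
    exists_cjIrr_mem_of_covers N hM hB hb (Covers.memLocalIdeal N hM hB hb hc) hχ hψ
  have h1 : omega (χ : G → ℂ) a = 1 := by
    rw [omega_eq_of_support N χ (fun g hg => extendByZero_not_mem N _ hg),
      omega_restrict_of_over N χ.2 ψ.2 hψ ha, hres, omega_blockCoeff, if_pos hψb]
  rw [omega_eq_sum_conjClasses (irr_isClassFunction χ) ha] at h1
  obtain ⟨C, hC⟩ : ∃ C : ConjClasses G, ¬ MemLocalIdeal M
      (a (Quotient.out C) * centralChar (χ : G → ℂ) (Quotient.out C)) := by
    by_contra hcon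
    push Not at hcon
    apply not_memLocalIdeal_one hM
    rw [← h1]
    exact MemLocalIdeal.sum hM _ _ fun C _ => hcon C
  set y : G := Quotient.out C with hy
  have h2 : ¬ MemLocalIdeal M (a y) := fun hcon =>
    hC (MemLocalIdeal.mul_right hM hcon (memLocalRing_centralChar hM χ y))
  have h3 : ¬ MemLocalIdeal M (centralChar (χ : G → ℂ) y) := fun hcon =>
    hC (MemLocalIdeal.mul_left hM (haR _) hcon)
  have hyN : y ∈ N := by
    by_contra hcon
    apply h2
    rw [ha_def, extendByZero_not_mem N _ hcon]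
    exact memLocalIdeal_zero hM
  rw [ha_def, extendByZero_mem N _ hyN] at h2
  obtain ⟨φ, ⟨g, hg⟩, hφ⟩ := exists_block_coeff_of_closed hM (conjUnion_closed N hM hb) h2
  refine ⟨⟨g⁻¹ * y * g, by simpa using hN.conj_mem y hyN g⁻¹⟩, ?_, ?_⟩
  · rw [← blockCoeff_blockOf_of_cjIrr_mem N hM hb hg]
    convert hφ using 3
    simp only [Subtype.mk.injEq]
    group
  · have h4 : centralChar (χ : G → ℂ) (g⁻¹ * y * g) = centralChar (χ : G → ℂ) y := by
      have := Cfsg.Agent.Lib.Helper77.centralChar_conj χ g⁻¹ y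
      rwa [inv_inv] at this
    simp only
    rw [h4]
    exact h3

omit [Fintype G] [Fintype N] in
theorem cjS_inf_normal (g : G) (D : Subgroup G) : cjS g (D ⊓ N) = cjS g D ⊓ N := by
  ext z
  rw [Subgroup.mem_inf, Cfsg.Agent.Lib.Helper16.mem_cj, Cfsg.Agent.Lib.Helper16.mem_cj,
    Subgroup.mem_inf]
  have : g⁻¹ * z * g ∈ N ↔ z ∈ N := by
    constructor
    · intro h
      have := hN.conj_mem _ h g
      simpa [mul_assoc] using this
    · intro h
      have := hN.conj_mem _ h g⁻¹
      simpa [mul_assoc] using this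
  rw [this]

/-- If `B` covers `b`, `D` is a defect group of `B` and `Q` one of `b`, then `|D ∩ N| ≤ |Q|`. -/
theorem card_inf_le {p : ℕ} [Fact p.Prime] (hM : IsPModular p M) {B : Set (IrrCharacter G)}
    (hB : IsPBlock M B) {b : Set (IrrCharacter N)} (hb : IsPBlock M b) (hc : Covers N B b)
    {D : Subgroup G} (hD : IsDefectGroup p M B D) {Q : Subgroup N} (hQ : IsDefectGroup p M b Q) :
    Nat.card (D ⊓ N : Subgroup G) ≤ Nat.card Q := by
  have hMp := pmod_isPrime hM
  obtain ⟨χ, hχ⟩ := IsPBlock.nonempty hMp hB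
  obtain ⟨x, hx1, hx2⟩ := exists_coeff_centralChar_unit N hMp hB hb hc hχ
  obtain ⟨g, hg⟩ := Cfsg.Agent.Lib.Helper16.minmax_b hM hB hD hχ hx2
  set R : Subgroup N := (cjS g D ⊓ N).subgroupOf N with hR
  have hRp : IsPGroup p R := by
    apply IsPGroup.comap_of_injective _ _ (Subgroup.subtype_injective _)
    exact (Cfsg.Agent.Lib.Helper16.isPGroup_cj
      (Cfsg.Agent.Lib.Helper16.IsDefectGroup.isPGroup hD) g).to_le inf_le_left
  have hRx : R ≤ Subgroup.centralizer ({x} : Set N) := by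
    intro z hz
    have h1 : (z : G) ∈ cjS g D ⊓ N := hz
    have h2 := Subgroup.mem_centralizer_singleton_iff.mp (hg h1.1)
    rw [Subgroup.mem_centralizer_singleton_iff]
    exact Subtype.ext h2
  obtain ⟨m, hm⟩ := Cfsg.Agent.Lib.Helper16.minmax_a hM hb hQ hx1 R hRp hRx
  calc Nat.card (D ⊓ N : Subgroup G) = Nat.card (cjS g (D ⊓ N)) :=
        (Cfsg.Agent.Lib.Helper16.card_cj g _).symm
    _ = Nat.card (cjS g D ⊓ N : Subgroup G) := by rw [cjS_inf_normal]
    _ = Nat.card R := by
        rw [hR, ← Subgroup.card_map_of_injective N.subtype_injective,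
          Subgroup.map_subgroupOf_eq_of_le inf_le_right]
    _ ≤ Nat.card (cjS m Q) := Nat.card_le_card_of_injective _ (Subgroup.inclusion_injective hm)
    _ = Nat.card Q := Cfsg.Agent.Lib.Helper16.card_cj m Q

/-- **Knörr's theorem** (S4438). -/
theorem knorr {p : ℕ} [Fact p.Prime] (hM : IsPModular p M) {B : Set (IrrCharacter G)}
    (hB : IsPBlock M B) {b : Set (IrrCharacter N)} (hb : IsPBlock M b) (hc : Covers N B b)
    {Q : Subgroup G} (hQN : Q ≤ N) (hQ : IsDefectGroup p M b (Q.subgroupOf N)) :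
    ∃ P : Subgroup G, IsDefectGroup p M B P ∧ P ⊓ N = Q := by
  obtain ⟨D, hD⟩ := Cfsg.Agent.Lib.Helper16.exists_isDefectGroup hM hB
  obtain ⟨g, hg⟩ := knorr_le N hM hB hb hc hD hQ
  rw [Subgroup.map_subgroupOf_eq_of_le hQN] at hg
  have hD' := Cfsg.Agent.Lib.Helper16.IsDefectGroup.conj hD g
  refine ⟨cjS g D, hD', ?_⟩
  symm
  apply Subgroup.eq_of_le_of_card_ge (le_inf hg hQN)
  have h1 := card_inf_le N hM hB hb hc hD' hQ
  rwa [← Subgroup.card_map_of_injective N.subtype_injective,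
    Subgroup.map_subgroupOf_eq_of_le hQN] at h1

end knorr

end Cfsg.Agent.Lib.Helper35
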