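import Mathlib
import Cfsg.Prelude.Def_Blocks
import Cfsg.Agent.Lib.Helper35.BlockKnorr
import Cfsg.Agent.Lib.Helper35.BlockNormal3
import Cfsg.Agent.Lib.Helper82.QuotBlock
import Cfsg.Agent.Lib.Helper78.DefectCard

/-!
# Blocks of quotient groups and their defect groups (Navarro 9.9)
-/

set_option autoImplicit false
set_option linter.unusedSectionVars false

namespace Cfsg.Agent.Lib.Helper35

open Cfsg Cfsg.Agent.Lib.Helper15 Cfsg.Agent.Lib.Helper78 Cfsg.Agent.Lib.Helper74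
open scoped ComplexConjugate

local notation "cjS" => Cfsg.Agent.Lib.Helper16.cj

section lift

variable {G : Type*} [Group G] [Finite G] (N : Subgroup G) [hN : N.Normal]

/-- a `p`-subgroup of a quotient is the image of a `p`-subgroup -/
theorem exists_pSubgroup_map_eq {p : ℕ} [Fact p.Prime] {D : Subgroup (G ⧸ N)} (hD : IsPGroup p D) :
    ∃ Q : Subgroup G, IsPGroup p Q ∧ Q.map (QuotientGroup.mk' N) = D := by
  set H : Subgroup G := D.comap (QuotientGroup.mk' N) with hH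
  let f : H →* D := ((QuotientGroup.mk' N).comp H.subtype).codRestrict D (fun x => x.2)
  have hf : Function.Surjective f := by
    rintro ⟨y, hy⟩
    obtain ⟨x, rfl⟩ := QuotientGroup.mk'_surjective N y
    exact ⟨⟨x, hy⟩, rfl⟩
  obtain P : Sylow p H := default
  have h1 : (⊤ : Subgroup D) = (P : Subgroup H).map f := by
    rw [← Sylow.coe_mapSurjective hf]
    exact (P.mapSurjective hf).is_maximal' (hD.to_subgroup ⊤) le_top
  refine ⟨(P : Subgroup H).map H.subtype, P.isPGroup'.map _, ?_⟩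
  apply le_antisymm
  · rintro _ ⟨_, ⟨x, _, rfl⟩, rfl⟩
    exact x.2
  · intro y hy
    have h2 : (⟨y, hy⟩ : D) ∈ (P : Subgroup H).map f := h1 ▸ Subgroup.mem_top _
    obtain ⟨x, hx, hxy⟩ := h2
    exact ⟨x, ⟨x, hx, rfl⟩, congrArg Subtype.val hxy⟩

theorem map_cjS (g : G) (P : Subgroup G) :
    (cjS g P).map (QuotientGroup.mk' N) = cjS (g : G ⧸ N) (P.map (QuotientGroup.mk' N)) := by
  ext y
  constructor
  · rintro ⟨x, hx, rfl⟩
    have hx' : x ∈ cjS g P := hx
    rw [Cfsg.Agent.Lib.Helper16.mem_cj] at hx' ⊢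
    exact ⟨_, hx', by simp⟩
  · intro hy
    rw [Cfsg.Agent.Lib.Helper16.mem_cj] at hy
    obtain ⟨x, hx, hxy⟩ := hy
    refine ⟨g * x * g⁻¹, Cfsg.Agent.Lib.Helper16.conj_mem_cj hx, ?_⟩
    simp only [QuotientGroup.mk'_apply, QuotientGroup.mk_mul, QuotientGroup.mk_inv] at hxy ⊢
    rw [hxy]
    group

end lift

section quot

variable {G : Type*} [Group G] [Fintype G] (N : Subgroup G) [hN : N.Normal] [Fintype (G ⧸ N)]
variable {M : Ideal AlgInt} {p : ℕ}

/-- **S4433** (Navarro 9.9(a)). -/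
theorem exists_defect_map_ge [Fact p.Prime] (hM : IsPModular p M)
    {Bbar : Set (IrrCharacter (G ⧸ N))} (hBbar : IsPBlock M Bbar)
    {B : Set (IrrCharacter G)} (hB : IsPBlock M B)
    {χb : IrrCharacter (G ⧸ N)} (hχb : χb ∈ Bbar) {χ : IrrCharacter G} (hχ : χ ∈ B)
    (hinf : (χ : G → ℂ) = fun g : G => (χb : G ⧸ N → ℂ) (g : G ⧸ N))
    {Dbar : Subgroup (G ⧸ N)} (hDbar : IsDefectGroup p M Bbar Dbar) :
    ∃ P : Subgroup G, IsDefectGroup p M B P ∧ Dbar ≤ P.map (QuotientGroup.mk' N) := by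
  classical
  have hMp := pmod_isPrime hM
  set a : G → ℂ := blockCoeff B with ha_def
  have ha : IsClassFunction G a := blockCoeff_isClassFunction B
  have haR : ∀ g, MemLocalRing M (a g) := memLocalRing_blockCoeff hMp hB
  have hpa := pushFun_isClassFunction N ha
  have hpR : ∀ y, MemLocalRing M (pushFun N a y) := by
    intro y
    unfold pushFun
    exact MemLocalRing.sum hMp _ _ fun x _ => haR x
  have h1 : omega (χb : G ⧸ N → ℂ) (pushFun N a) = 1 := by
    rw [← omega_inflate_push, ← hinf, omega_blockCoeff, if_pos hχ]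
  rw [omega_eq_sum_conjClasses (irr_isClassFunction χb) hpa] at h1
  obtain ⟨C, hC⟩ : ∃ C : ConjClasses (G ⧸ N), ¬ MemLocalIdeal M
      (pushFun N a (Quotient.out C) * centralChar (χb : G ⧸ N → ℂ) (Quotient.out C)) := by
    by_contra hcon
    push Not at hcon
    apply not_memLocalIdeal_one hMp
    rw [← h1]
    exact MemLocalIdeal.sum hMp _ _ fun C _ => hcon C
  set y : G ⧸ N := Quotient.out C with hy
  have h2 : ¬ MemLocalIdeal M (pushFun N a y) := fun hcon =>
    hC (MemLocalIdeal.mul_right hMp hcon (memLocalRing_centralChar hMp χb y))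
  have h3 : ¬ MemLocalIdeal M (centralChar (χb : G ⧸ N → ℂ) y) := fun hcon =>
    hC (MemLocalIdeal.mul_left hMp (hpR _) hcon)
  obtain ⟨x, hx⟩ := Cfsg.Agent.Lib.Helper16.minmax_b hM hBbar hDbar hχb h3
  -- replace `y` by a conjugate
  set y' : G ⧸ N := x⁻¹ * y * x⁻¹⁻¹ with hy'
  have h4 : Dbar ≤ Subgroup.centralizer ({y'} : Set (G ⧸ N)) := by
    rw [hy', Cfsg.Agent.Lib.Helper16.centralizer_conj, Cfsg.Agent.Lib.Helper16.le_cj_iff, inv_inv]
    exact hx
  have h2' : ¬ MemLocalIdeal M (pushFun N a y') := by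
    rw [hy', hpa]; exact h2
  obtain ⟨Q, hQp, hQ⟩ := exists_pSubgroup_map_eq N (Cfsg.Agent.Lib.Helper16.IsDefectGroup.isPGroup hDbar)
  -- action of `Q` on the fibre
  let X := {z : G // (z : G ⧸ N) = y'}
  have hQc : ∀ q : Q, ((q : G) : G ⧸ N) * y' = y' * ((q : G) : G ⧸ N) := by
    intro q
    have : ((q : G) : G ⧸ N) ∈ Dbar := hQ ▸ ⟨q, q.2, rfl⟩
    exact Subgroup.mem_centralizer_singleton_iff.mp (h4 this)
  let _ : MulAction Q X :=
    { smul := fun u z => ⟨u * z.1 * (u : G)⁻¹, by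
        rw [QuotientGroup.mk_mul, QuotientGroup.mk_mul, QuotientGroup.mk_inv, z.2, hQc u]
        group⟩
      one_smul := fun z => Subtype.ext (by
        show ((1 : Q) : G) * z.1 * ((1 : Q) : G)⁻¹ = z.1
        simp)
      mul_smul := fun u v z => Subtype.ext (by
        show ((u * v : Q) : G) * z.1 * ((u * v : Q) : G)⁻¹ = u * (v * z.1 * (v : G)⁻¹) * (u : G)⁻¹
        simp [mul_assoc]) }
  have hsum : ∑ z : X, a z.1 = pushFun N a y' := by
    unfold pushFun
    rw [Finset.sum_subtype (p := fun z : G => (z : G ⧸ N) = y')]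
    intro z
    simp
  obtain ⟨z, hz, hza⟩ := exists_fixed_not_memLocalIdeal hM hQp (fun z : X => a z.1)
    (fun u z => ha z.1 u) (fun z => haR z.1) (by rw [hsum]; exact h2')
  obtain ⟨P₀, hP₀⟩ := Cfsg.Agent.Lib.Helper16.exists_isDefectGroup hM hB
  obtain ⟨g, hg⟩ := Cfsg.Agent.Lib.Helper16.minmax_a hM hB hP₀ hza Q hQp (by
    intro q hq
    rw [Subgroup.mem_centralizer_singleton_iff]
    have h5 : q * z.1 * q⁻¹ = z.1 := congrArg Subtype.val (hz ⟨q, hq⟩)
    calc q * z.1 = (q * z.1 * q⁻¹) * q := by group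
      _ = z.1 * q := by rw [h5])
  exact ⟨cjS g P₀, Cfsg.Agent.Lib.Helper16.IsDefectGroup.conj hP₀ g, hQ ▸ Subgroup.map_mono hg⟩

/-- the characters of the quotient whose inflation lies in `B` -/
def quotSet (B : Set (IrrCharacter G)) : Set (IrrCharacter (G ⧸ N)) :=
  {χb | (Cfsg.Agent.Lib.Helper80.inflateEquiv N χb).1 ∈ B}

theorem quotSet_closed (hM : M.IsPrime) {B : Set (IrrCharacter G)} (hB : IsPBlock M B) :
    ∀ χ ∈ quotSet N B, blockOf M (χ : G ⧸ N → ℂ) ⊆ quotSet N B := by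
  intro χ hχ ψ hψ
  exact IsPBlock.mem_of_sameBlock hM hB hχ (Cfsg.Agent.Lib.Helper82.sameBlock_inflate N hM hψ)

theorem pushFun_blockCoeff (B : Set (IrrCharacter G)) :
    pushFun N (blockCoeff B) = blockCoeff (quotSet N B) := by
  classical
  apply eq_of_omega_eq (pushFun_isClassFunction N (blockCoeff_isClassFunction B))
    (blockCoeff_isClassFunction _)
  intro χ
  rw [← omega_inflate_push, omega_blockCoeff]
  have h1 := omega_blockCoeff B (Cfsg.Agent.Lib.Helper80.inflateEquiv N χ).1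
  exact h1

/-- **S4434** (Navarro 9.9(b)). -/
theorem exists_quot_block [Fact p.Prime] (hM : IsPModular p M) (hNp : IsPGroup p N)
    {B : Set (IrrCharacter G)} (hB : IsPBlock M B) :
    ∃ Bbar : Set (IrrCharacter (G ⧸ N)), IsPBlock M Bbar ∧ Bbar ⊆ quotSet N B ∧
      ∀ Dbar : Subgroup (G ⧸ N), IsDefectGroup p M Bbar Dbar ↔
        ∃ P : Subgroup G, IsDefectGroup p M B P ∧ Dbar = P.map (QuotientGroup.mk' N) := by
  classical
  have hMp := pmod_isPrime hM
  obtain ⟨P, hP⟩ := Cfsg.Agent.Lib.Helper16.exists_isDefectGroup hM hB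
  have hPp := Cfsg.Agent.Lib.Helper16.IsDefectGroup.isPGroup hP
  obtain ⟨g, hg, hPg, -⟩ := Cfsg.Agent.Lib.Helper16.isDefectGroup_iff.mp hP
  obtain ⟨χ, hχ⟩ := IsPBlock.nonempty hMp hB
  have hgN : g ∈ Subgroup.centralizer (N : Set G) := by
    by_contra hcon
    exact hg.2.2 χ hχ (memLocalIdeal_centralChar_of_not_mem_centralizer N hM hNp χ hcon)
  have hgreg : ¬ p ∣ orderOf g := by
    intro hcon
    apply hg.2.1
    rw [blockCoeff_eq_zero_of_singular hM hB g hcon]
    exact memLocalIdeal_zero hMp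
  have h1 : pushFun N (blockCoeff B) (g : G ⧸ N) = blockCoeff B g := by
    unfold pushFun
    apply Finset.sum_eq_single g
    · intro x hx hxg
      have hx' : (x : G ⧸ N) = (g : G ⧸ N) := (Finset.mem_filter.mp hx).2
      have hn : g⁻¹ * x ∈ N := QuotientGroup.eq.mp hx'.symm
      apply blockCoeff_eq_zero_of_singular hM hB
      have h2 : x = g * (g⁻¹ * x) := by group
      rw [h2]
      apply dvd_orderOf_mul_of_regular (pmod_prime hM) hgreg
      · obtain ⟨k, hk⟩ := (IsPGroup.iff_orderOf.mp hNp) ⟨g⁻¹ * x, hn⟩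
        exact ⟨k, by rw [← hk, ← Subgroup.orderOf_coe]⟩
      · intro h3
        apply hxg
        rw [h2, h3, mul_one]
      · exact Subgroup.mem_centralizer_iff.mp hgN _ hn
    · intro h
      exfalso
      apply h
      rw [Finset.mem_filter]
      exact ⟨Finset.mem_univ _, rfl⟩
  have h2 : ¬ MemLocalIdeal M (blockCoeff (quotSet N B) (g : G ⧸ N)) := by
    rw [← pushFun_blockCoeff, h1]
    exact hg.2.1
  obtain ⟨φ, hφ, hφg⟩ := exists_block_coeff_of_closed hMp (quotSet_closed N hMp hB) h2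
  have hBb : IsPBlock M (blockOf M (φ : G ⧸ N → ℂ)) := isPBlock_blockOf φ
  have key : ∀ Dbar : Subgroup (G ⧸ N), IsDefectGroup p M (blockOf M (φ : G ⧸ N → ℂ)) Dbar →
      ∃ P' : Subgroup G, IsDefectGroup p M B P' ∧ Dbar = P'.map (QuotientGroup.mk' N) := by
    intro Dbar hD
    obtain ⟨x, hx⟩ := Cfsg.Agent.Lib.Helper16.minmax_a hM hBb hD hφg
      (P.map (QuotientGroup.mk' N)) (hPp.map _) (by
        rintro _ ⟨u, hu, rfl⟩
        exact Cfsg.Agent.Lib.Helper82.centralizer_le_comap N g (hPg hu))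
    obtain ⟨P', hP', hle⟩ := exists_defect_map_ge N hM hBb hB (mem_blockOf_self hMp φ) hφ rfl hD
    refine ⟨P', hP', Subgroup.eq_of_le_of_card_ge hle ?_⟩
    obtain ⟨t, rfl⟩ := Cfsg.Agent.Lib.Helper16.IsDefectGroup.exists_conj_eq hM hB hP hP'
    rw [map_cjS, Cfsg.Agent.Lib.Helper16.card_cj]
    calc Nat.card (P.map (QuotientGroup.mk' N)) ≤ Nat.card (cjS x Dbar) :=
          Nat.card_le_card_of_injective _ (Subgroup.inclusion_injective hx)
      _ = Nat.card Dbar := Cfsg.Agent.Lib.Helper16.card_cj x Dbar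
  refine ⟨_, hBb, quotSet_closed N hMp hB φ hφ, fun Dbar => ⟨key Dbar, ?_⟩⟩
  rintro ⟨P'', hP'', rfl⟩
  obtain ⟨D₀, hD₀⟩ := Cfsg.Agent.Lib.Helper16.exists_isDefectGroup hM hBb
  obtain ⟨P', hP', rfl⟩ := key D₀ hD₀
  obtain ⟨t, rfl⟩ := Cfsg.Agent.Lib.Helper16.IsDefectGroup.exists_conj_eq hM hB hP' hP''
  rw [map_cjS]
  exact Cfsg.Agent.Lib.Helper16.IsDefectGroup.conj hD₀ _

end quot

end Cfsg.Agent.Lib.Helper35
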