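import Mathlib
import Cfsg.Prelude.Def_Blocks
import Cfsg.Prelude.Def_BlockRank
import Cfsg.Agent.Lib.Helper35.BlockQuot
import Cfsg.Agent.Lib.Helper97.Subsection
import Cfsg.Agent.Lib.Helper78.Columns
import Cfsg.Agent.Lib.Helper78.Subsection

/-!
# Blocks and central `p`-subgroups: the dominated block has the same `p`-regular rank
-/

set_option autoImplicit false
set_option linter.unusedSectionVars false

namespace Cfsg.Agent.Lib.Helper35

open Cfsg Cfsg.Agent.Lib.Helper15 Cfsg.Agent.Lib.Helper78 Cfsg.Agent.Lib.Helper74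
open scoped ComplexConjugate

section central

variable {H : Type*} [Group H] [Fintype H] (Z : Subgroup H) [hZn : Z.Normal] [Fintype (H ⧸ Z)]
variable {M : Ideal AlgInt} {p : ℕ}

/-- the sum of an irreducible character over a normal subgroup -/
theorem sum_irr_normal [Fintype Z] (ψ : IrrCharacter H) : by
    classical
    exact ∑ z : Z, (ψ : H → ℂ) z =
      if (∀ n ∈ Z, (ψ : H → ℂ) n = (ψ : H → ℂ) 1) then (Nat.card Z : ℂ) * (ψ : H → ℂ) 1 else 0 := by
  classical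
  split_ifs with h
  · rw [Finset.sum_congr rfl (fun (z : Z) _ => h (z : H) z.2)]
    simp [Nat.card_eq_fintype_card]
  · rw [sum_restrict_eq Z]
    by_contra hcon
    apply h
    have h1 : classInner (fun n : Z => (ψ : H → ℂ) n) (fun _ => 1) ≠ 0 := by
      intro h2; apply hcon; rw [h2, mul_zero]
    intro n hn
    exact (restrict_eq_of_inner_one_ne_zero Z ψ.2 h1).2 ⟨n, hn⟩

/-- the key pointwise identity -/
theorem sum_block_sq_central [Fact p.Prime] (hM : IsPModular p M) (hZc : Z ≤ Subgroup.center H)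
    (hZp : IsPGroup p Z) {b : Set (IrrCharacter H)} (hb : IsPBlock M b) {c : H}
    (hc : ¬ p ∣ orderOf c) :
    ∑ᶠ ψ ∈ b, (ψ : H → ℂ) c * conj ((ψ : H → ℂ) c) =
      (Nat.card Z : ℂ) * ∑ᶠ ψ ∈ quotSet Z b, (ψ : H ⧸ Z → ℂ) (c : H ⧸ Z) *
        conj ((ψ : H ⧸ Z → ℂ) (c : H ⧸ Z)) := by
  classical
  have := Fintype.ofFinite Z
  have hcen : ∀ z : Z, ∀ t : H, t * (z : H) = (z : H) * t := fun z t =>
    (Subgroup.mem_center_iff.mp (hZc z.2) t)
  -- orthogonality
  have h1 : ∀ z : Z, z ≠ 1 →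
      ∑ᶠ ψ ∈ b, (ψ : H → ℂ) ((z : H) * c) * conj ((ψ : H → ℂ) c) = 0 := by
    intro z hz
    apply sum_block_mul_conj_eq_zero hM hb (x := (z : H)) (y := 1)
    · refine ⟨c, rfl, (hcen z c).symm, ?_, hc⟩
      obtain ⟨k, hk⟩ := (IsPGroup.iff_orderOf.mp hZp) z
      exact ⟨k, by rw [← hk, Subgroup.orderOf_coe]⟩
    · exact ⟨c, one_mul c, Commute.one_left c, ⟨0, by simp⟩, hc⟩
    · intro hcon
      apply hz
      have : (z : H) = 1 := by
        have h2 := hcon.symm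
        rwa [isConj_one_right] at h2
      exact Subtype.ext this
  have h2 : ∑ z : Z, ∑ᶠ ψ ∈ b, (ψ : H → ℂ) ((z : H) * c) * conj ((ψ : H → ℂ) c) =
      ∑ᶠ ψ ∈ b, (ψ : H → ℂ) c * conj ((ψ : H → ℂ) c) := by
    rw [Finset.sum_eq_single (1 : Z)]
    · simp
    · intro z _ hz; exact h1 z hz
    · intro h; exact absurd (Finset.mem_univ _) h
  rw [← h2]
  simp only [finsum_mem_irr]
  rw [Finset.sum_comm]
  have h3 : ∀ ψ : IrrCharacter H, ∑ z : Z, (if ψ ∈ b then
      (ψ : H → ℂ) ((z : H) * c) * conj ((ψ : H → ℂ) c) else 0) =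
      if (∀ n ∈ Z, (ψ : H → ℂ) n = (ψ : H → ℂ) 1) then
        (Nat.card Z : ℂ) * (if ψ ∈ b then (ψ : H → ℂ) c * conj ((ψ : H → ℂ) c) else 0) else 0 := by
    intro ψ
    by_cases hψ : ψ ∈ b
    · simp only [hψ, if_true]
      have h4 : ∀ z : Z, (ψ : H → ℂ) ((z : H) * c) * conj ((ψ : H → ℂ) c) =
          (ψ : H → ℂ) z * ((ψ : H → ℂ) c * conj ((ψ : H → ℂ) c) / (ψ : H → ℂ) 1) := by
        intro z
        rw [irr_central_mul ψ (hcen z) c]; ring
      simp only [h4]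
      rw [← Finset.sum_mul, sum_irr_normal Z ψ]
      split_ifs with h5
      · have := irr_one_ne_zero ψ
        field_simp
      · rw [zero_mul]
    · simp [hψ]
  simp only [h3]
  rw [Finset.mul_sum, ← Finset.sum_filter]
  have h5 := Cfsg.Agent.Lib.Helper80.sum_filter_ker_eq Z (fun ψ : IrrCharacter H =>
      (Nat.card Z : ℂ) * (if ψ ∈ b then (ψ : H → ℂ) c * conj ((ψ : H → ℂ) c) else 0))
  convert h5 using 2
  · ext χ; simp
  · rfl

open Classical in
/-- regular elements of `H` and of `H ⧸ Z` correspond bijectively (`Z` a central `p`-subgroup) -/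
theorem sum_regular_quot [Fact p.Prime] (hZc : Z ≤ Subgroup.center H)
    (hZp : IsPGroup p Z) (F : H ⧸ Z → ℂ) :
    ∑ c : H, (if ¬ p ∣ orderOf c then F (c : H ⧸ Z) else 0) =
      ∑ y : H ⧸ Z, (if ¬ p ∣ orderOf y then F y else 0) := by
  rw [← Finset.sum_filter, ← Finset.sum_filter]
  apply Finset.sum_bij (fun (c : H) _ => (QuotientGroup.mk c : H ⧸ Z))
  · intro c hc
    rw [Finset.mem_filter] at hc ⊢
    exact ⟨Finset.mem_univ _, fun h => hc.2 (h.trans (orderOf_map_dvd (QuotientGroup.mk' Z) c))⟩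
  · intro c hc c' hc' h
    rw [Finset.mem_filter] at hc hc'
    have hz : c⁻¹ * c' ∈ Z := QuotientGroup.eq.mp h
    by_contra hne
    apply hc'.2
    have h2 : c' = c * (c⁻¹ * c') := by group
    rw [h2]
    apply dvd_orderOf_mul_of_regular (Fact.out : p.Prime) hc.2
    · obtain ⟨k, hk⟩ := (IsPGroup.iff_orderOf.mp hZp) ⟨c⁻¹ * c', hz⟩
      exact ⟨k, by rw [← hk, ← Subgroup.orderOf_coe]⟩
    · intro h3
      apply hne
      rw [h2, h3, mul_one]
    · exact (Subgroup.mem_center_iff.mp (hZc hz) c).symm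
  · intro y hy
    rw [Finset.mem_filter] at hy
    obtain ⟨g, hg, rfl⟩ := Cfsg.Agent.Lib.Helper82.exists_regular_lift p Z hZp y hy.2
    exact ⟨g, Finset.mem_filter.mpr ⟨Finset.mem_univ _, hg⟩, rfl⟩
  · intro c _; rfl

open Classical in
/-- the dominated set has the same `p`-regular rank -/
theorem blockRank_quotSet [Fact p.Prime] (hM : IsPModular p M) (hZc : Z ≤ Subgroup.center H)
    (hZp : IsPGroup p Z) {b : Set (IrrCharacter H)} (hb : IsPBlock M b) :
    blockRank p (quotSet Z b) = blockRank p b := by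
  have hMp := pmod_isPrime hM
  have h1 := Cfsg.Agent.Lib.Helper97.blockRank_eq hM b (fun ψ hψ => by
    rw [← IsPBlock.eq_blockOf hMp hb hψ])
  have h2 := Cfsg.Agent.Lib.Helper97.blockRank_eq hM (quotSet Z b) (quotSet_closed Z hMp hb)
  have h3 : ∀ c : H, (if ¬ p ∣ orderOf c then
      ∑ᶠ ψ ∈ b, (ψ : H → ℂ) c * conj ((ψ : H → ℂ) c) else 0) =
      (Nat.card Z : ℂ) * (if ¬ p ∣ orderOf c then
        (fun y : H ⧸ Z => ∑ᶠ ψ ∈ quotSet Z b, (ψ : H ⧸ Z → ℂ) y * conj ((ψ : H ⧸ Z → ℂ) y))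
          (c : H ⧸ Z) else 0) := by
    intro c
    by_cases hc : p ∣ orderOf c
    · simp [hc]
    · rw [if_pos hc, if_pos hc]
      exact sum_block_sq_central Z hM hZc hZp hb hc
  rw [Finset.sum_congr rfl (fun c _ => h3 c), ← Finset.mul_sum, sum_regular_quot Z hZc hZp
    (fun y : H ⧸ Z => ∑ᶠ ψ ∈ quotSet Z b, (ψ : H ⧸ Z → ℂ) y * conj ((ψ : H ⧸ Z → ℂ) y))] at h1
  have h4 : (Fintype.card H : ℂ) = (Nat.card Z : ℂ) * (Fintype.card (H ⧸ Z) : ℂ) := by
    rw [← Nat.card_eq_fintype_card, ← Nat.card_eq_fintype_card, ← Nat.cast_mul,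
      mul_comm, ← Subgroup.card_eq_card_quotient_mul_card_subgroup]
  have hZ0 : (Nat.card Z : ℂ) ≠ 0 := by exact_mod_cast Nat.card_pos.ne'
  have h5 : (blockRank p b : ℂ) = (blockRank p (quotSet Z b) : ℂ) := by
    rw [h1, h2, h4, mul_inv, mul_assoc, mul_comm ((Fintype.card (H ⧸ Z) : ℂ))⁻¹, ← mul_assoc,
      ← mul_assoc, inv_mul_cancel₀ hZ0, one_mul, mul_comm]
  exact_mod_cast h5.symm

/-- the characters of `H ⧸ Z` inflating into a block form one block (`Z` central `p`-subgroup) -/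
theorem isPBlock_quotSet_central [Fact p.Prime] (hM : IsPModular p M)
    (hZc : Z ≤ Subgroup.center H) (hZp : IsPGroup p Z) {b : Set (IrrCharacter H)}
    (hb : IsPBlock M b) : IsPBlock M (quotSet Z b) := by
  have hMp := pmod_isPrime hM
  obtain ⟨χ₀, hχ₀, hker⟩ := exists_mem_block_ker Z hM hZp hb
  obtain ⟨ψ₀, hψ₀⟩ := (Cfsg.Agent.Lib.Helper80.inflateEquiv Z).surjective
    ⟨χ₀, fun n hn => hker ⟨n, hn⟩⟩
  have hmem : ψ₀ ∈ quotSet Z b := by
    show (Cfsg.Agent.Lib.Helper80.inflateEquiv Z ψ₀).1 ∈ b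
    rw [hψ₀]; exact hχ₀
  refine ⟨ψ₀, Set.Subset.antisymm ?_ (quotSet_closed Z hMp hb ψ₀ hmem)⟩
  intro ψ hψ
  apply Cfsg.Agent.Lib.Helper82.sameBlock_deflate p Z hM hZp _ ψ₀ ψ
  · exact IsPBlock.sameBlock hMp hb hmem hψ
  · intro g _ hg
    exfalso
    apply hg
    rw [Subgroup.mem_centralizer_iff]
    intro z hz
    exact (Subgroup.mem_center_iff.mp (hZc hz) g).symm

theorem isDefectGroup_quotSet_central [Fact p.Prime] (hM : IsPModular p M)
    (hZc : Z ≤ Subgroup.center H) (hZp : IsPGroup p Z) {b : Set (IrrCharacter H)}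
    (hb : IsPBlock M b) (Dbar : Subgroup (H ⧸ Z)) :
    IsDefectGroup p M (quotSet Z b) Dbar ↔
      ∃ P : Subgroup H, IsDefectGroup p M b P ∧ Dbar = P.map (QuotientGroup.mk' Z) := by
  have hMp := pmod_isPrime hM
  obtain ⟨Bbar, h1, h2, h3⟩ := exists_quot_block Z hM hZp hb
  obtain ⟨ψ, hψ⟩ := IsPBlock.nonempty hMp h1
  have h4 : Bbar = quotSet Z b :=
    IsPBlock.eq_of_mem_mem hMp h1 (isPBlock_quotSet_central Z hM hZc hZp hb) hψ (h2 hψ)
  rw [← h4]
  exact h3 Dbar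

omit [Fintype H] [Fintype (H ⧸ Z)] in
theorem card_map_mk_mul [Finite H] {Q : Subgroup H} (hZQ : Z ≤ Q) :
    Nat.card (Q.map (QuotientGroup.mk' Z)) * Nat.card Z = Nat.card Q := by
  have h1 : (Q.map (QuotientGroup.mk' Z)).comap (QuotientGroup.mk' Z) = Q := by
    apply Subgroup.comap_map_eq_self
    rw [QuotientGroup.ker_mk']; exact hZQ
  have h2 : (Q.map (QuotientGroup.mk' Z)).index = Q.index := by
    rw [← Subgroup.index_comap_of_surjective _ (QuotientGroup.mk'_surjective Z), h1]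
  have h3 := Subgroup.card_mul_index Q
  have h4 := Subgroup.card_mul_index (Q.map (QuotientGroup.mk' Z))
  have h5 := Subgroup.card_eq_card_quotient_mul_card_subgroup Z
  rw [h2] at h4
  have h6 : Q.index ≠ 0 := Subgroup.index_ne_zero_of_finite
  apply Nat.eq_of_mul_eq_mul_right (Nat.pos_of_ne_zero h6)
  rw [h3, h5, ← h4]; ring

end central

end Cfsg.Agent.Lib.Helper35
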