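import Mathlib

/-!
# Derived length of linear `p`-groups, I: general lemmas and the coprime case
-/

set_option autoImplicit false

namespace Cfsg.Agent.Lib.Helper35.LinDL

open Module

universe u v w

section Grp

variable {Q : Type u} [Group Q]

theorem derivedSeries_succ_le_map (M : Subgroup Q) (h : commutator Q ≤ M) (k : ℕ) :
    derivedSeries Q (k + 1) ≤ (derivedSeries M k).map M.subtype := by
  induction k with
  | zero =>
    rw [derivedSeries_succ, derivedSeries_zero, derivedSeries_zero]
    have h1 : (⊤ : Subgroup M).map M.subtype = M := by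
      rw [← MonoidHom.range_eq_map, Subgroup.range_subtype]
    rw [h1]; exact h
  | succ k ih =>
    rw [derivedSeries_succ, derivedSeries_succ (G := M), Subgroup.map_commutator]
    exact Subgroup.commutator_mono ih ih

theorem exists_central_mod {p : ℕ} [Fact p.Prime] [Finite Q] (hQ : IsPGroup p Q) (N : Subgroup Q)
    [N.Normal] (hN : N ≠ ⊤) : ∃ x, x ∉ N ∧ ∀ g, g * x * g⁻¹ * x⁻¹ ∈ N := by
  have hq : IsPGroup p (Q ⧸ N) := hQ.to_quotient N
  have : Nontrivial (Q ⧸ N) := QuotientGroup.nontrivial_iff.mpr hN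
  have := hq.center_nontrivial
  obtain ⟨⟨y, hy⟩, hy1⟩ := exists_ne (1 : Subgroup.center (Q ⧸ N))
  obtain ⟨x, rfl⟩ := QuotientGroup.mk_surjective y
  refine ⟨x, ?_, ?_⟩
  · intro hx
    apply hy1
    apply Subtype.ext
    exact (QuotientGroup.eq_one_iff x).mpr hx
  · intro g
    rw [← QuotientGroup.eq_one_iff]
    have h1 := Subgroup.mem_center_iff.mp hy (g : Q ⧸ N)
    rw [QuotientGroup.mk_mul, QuotientGroup.mk_mul, QuotientGroup.mk_mul, QuotientGroup.mk_inv,
      QuotientGroup.mk_inv, h1]
    group

/-- the commutator map with an element that is central modulo the centre -/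
def commHom (x : Q) (hx : ∀ g, g * x * g⁻¹ * x⁻¹ ∈ Subgroup.center Q) : Q →* Q :=
  MonoidHom.mk' (fun g => g * x * g⁻¹ * x⁻¹) (by
    intro a b
    have h1 := Subgroup.mem_center_iff.mp (hx b)
    have h2 : a * b * x * (a * b)⁻¹ * x⁻¹ = a * (b * x * b⁻¹ * x⁻¹) * x * a⁻¹ * x⁻¹ := by group
    rw [h2, h1 a]
    have h3 := h1 (a * x * a⁻¹ * x⁻¹)
    calc b * x * b⁻¹ * x⁻¹ * a * x * a⁻¹ * x⁻¹ = (b * x * b⁻¹ * x⁻¹) * (a * x * a⁻¹ * x⁻¹) := by group
      _ = _ := h3.symm)

theorem commHom_apply (x : Q) (hx : ∀ g, g * x * g⁻¹ * x⁻¹ ∈ Subgroup.center Q) (g : Q) :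
    commHom x hx g = g * x * g⁻¹ * x⁻¹ := rfl

theorem commutator_le_ker_commHom (x : Q) (hx : ∀ g, g * x * g⁻¹ * x⁻¹ ∈ Subgroup.center Q) :
    commutator Q ≤ (commHom x hx).ker := by
  rw [commutator_def, Subgroup.commutator_le]
  intro a _ b _
  rw [MonoidHom.mem_ker, commutatorElement_def, map_mul, map_mul, map_mul, map_inv, map_inv]
  have h1 := Subgroup.mem_center_iff.mp (hx a) (commHom x hx b)
  rw [← commHom_apply x hx a] at h1
  rw [← h1]
  group

theorem le_ker_of_quotient {H : Type*} [Monoid H] (ρ : Q →* H) (k : ℕ)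
    (h : derivedSeries (Q ⧸ ρ.ker) k = ⊥) : derivedSeries Q k ≤ ρ.ker := by
  have h1 := map_derivedSeries_le_derivedSeries (QuotientGroup.mk' ρ.ker) k
  rw [h, le_bot_iff, Subgroup.map_eq_bot_iff, QuotientGroup.ker_mk'] at h1
  exact h1

end Grp

section Lin

variable {K : Type w} [Field K] {V : Type v} [AddCommGroup V] [Module K V]

theorem iSup_eigenspace_eq_top [IsAlgClosed K] [FiniteDimensional K V] (f : Module.End K V) {m : ℕ}
    (hm : (m : K) ≠ 0) (hf : f ^ m = 1) : ⨆ μ, f.eigenspace μ = ⊤ := by
  have hss : f.IsSemisimple := by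
    apply Module.End.isSemisimple_of_squarefree_aeval_eq_zero (p := Polynomial.X ^ m - 1)
    · exact (Polynomial.separable_X_pow_sub_C 1 hm one_ne_zero).squarefree
    · simp [hf]
  have h := Module.End.iSup_maxGenEigenspace_eq_top f
  simpa [hss.isFinitelySemisimple.maxGenEigenspace_eq_eigenspace] using h

theorem sum_finrank_eq_of_iSupIndep [FiniteDimensional K V] {ι : Type*} (E : ι → Submodule K V)
    (h : iSupIndep E) (s : Finset ι) :
    ∑ i ∈ s, finrank K (E i) = finrank K (⨆ i ∈ s, E i : Submodule K V) := by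
  classical
  induction s using Finset.induction_on with
  | empty =>
    have h0 : (⨆ i ∈ (∅ : Finset ι), E i) = ⊥ := by simp
    rw [Finset.sum_empty, h0, finrank_bot]
  | insert a s ha ih =>
    rw [Finset.sum_insert ha, ih, Finset.iSup_insert]
    have hd : Disjoint (E a) (⨆ i ∈ (s : Set ι), E i) := h.disjoint_biSup (by simpa using ha)
    have h1 := Submodule.finrank_sup_add_finrank_inf_eq (E a) (⨆ i ∈ s, E i)
    have h2 : E a ⊓ (⨆ i ∈ s, E i) = ⊥ := by
      have := hd.eq_bot
      simpa using this
    rw [h2, finrank_bot, add_zero] at h1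
    exact h1.symm

theorem orbit_bound [FiniteDimensional K V] (f : Module.End K V) (t d : ℕ) (c : ℕ → K)
    (hc : Set.InjOn c (Set.Iio t)) (hd : ∀ i < t, d ≤ finrank K (f.eigenspace (c i))) :
    t * d ≤ finrank K V := by
  classical
  have h1 := sum_finrank_eq_of_iSupIndep f.eigenspace f.eigenspaces_iSupIndep
    ((Finset.range t).image c)
  rw [Finset.sum_image (by
    intro a ha b hb hab
    exact hc (by simpa using ha) (by simpa using hb) hab)] at h1
  have h2 : t * d ≤ ∑ i ∈ Finset.range t, finrank K (f.eigenspace (c i)) := by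
    calc t * d = ∑ i ∈ Finset.range t, d := by simp
      _ ≤ _ := Finset.sum_le_sum (fun i hi => hd i (by simpa using hi))
  rw [h1] at h2
  exact h2.trans (Submodule.finrank_le _)

variable {P : Type u} [Group P]

/-- restriction of a representation to an invariant subspace -/
def resRep (ρ : P →* Module.End K V) (E : Submodule K V) (hE : ∀ g, ∀ v ∈ E, ρ g v ∈ E) :
    P →* Module.End K E where
  toFun g := (ρ g).restrict (hE g)
  map_one' := by ext; simp
  map_mul' a b := by ext; simp

theorem resRep_apply (ρ : P →* Module.End K V) (E : Submodule K V) (hE : ∀ g, ∀ v ∈ E, ρ g v ∈ E)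
    (g : P) (v : E) : ((resRep ρ E hE g v : E) : V) = ρ g v := rfl

theorem mem_ker_of_iSup {ι : Sort*} (ρ : P →* Module.End K V) (E : ι → Submodule K V)
    (hE : ⨆ i, E i = ⊤) (y : P) (h : ∀ i, ∀ v ∈ E i, ρ y v = v) : y ∈ ρ.ker := by
  rw [MonoidHom.mem_ker]
  have h1 : ∀ i, E i ≤ LinearMap.ker (ρ y - 1) := by
    intro i v hv
    rw [LinearMap.mem_ker, LinearMap.sub_apply, h i v hv]
    simp
  have h2 : LinearMap.ker (ρ y - 1) = ⊤ := top_le_iff.mp (hE ▸ iSup_le h1)
  rw [LinearMap.ker_eq_top] at h2
  exact sub_eq_zero.mp h2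

end Lin

section Coprime

variable (K : Type w) [Field K] [IsAlgClosed K] (p : ℕ) [Fact p.Prime]

/-- the statement proved by induction -/
def Stmt (n : ℕ) : Prop :=
  ∀ (P : Type u) [Group P] [Finite P] (_ : IsPGroup p P) (V : Type v) [AddCommGroup V] [Module K V]
    [FiniteDimensional K V] (ρ : P →* Module.End K V), finrank K V ≤ n →
    derivedSeries P (Nat.log p n + 1) ≤ ρ.ker

variable {K p}

theorem faithful_step (hpK : (p : K) ≠ 0) (n : ℕ) (ih : ∀ m < n, Stmt.{u, v, w} K p m)
    (Q : Type u) [Group Q] [Finite Q] (hQ : IsPGroup p Q) (V : Type v) [AddCommGroup V] [Module K V]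
    [FiniteDimensional K V] (σ : Q →* Module.End K V) (hσ : Function.Injective σ)
    (hn : finrank K V ≤ n) : derivedSeries Q (Nat.log p n + 1) = ⊥ := by
  have hp : p.Prime := Fact.out
  have hdiag : ∀ y : Q, ⨆ μ, (σ y).eigenspace μ = ⊤ := by
    intro y
    obtain ⟨k, hk⟩ := hQ y
    apply iSup_eigenspace_eq_top (σ y) (m := p ^ k)
    · rw [Nat.cast_pow]; exact pow_ne_zero _ hpK
    · rw [← map_pow, hk, map_one]
  have hker : σ.ker = ⊥ := (MonoidHom.ker_eq_bot_iff σ).mpr hσ
  by_cases hc : Subgroup.center Q = ⊤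
  · have h1 : derivedSeries Q 1 = ⊥ := by
      rw [derivedSeries_one]
      exact (commutator_eq_bot_iff_center_eq_top Q).mpr hc
    exact le_bot_iff.mp (h1 ▸ derivedSeries_antitone Q (Nat.le_add_left 1 _))
  by_cases hA : ∃ z ∈ Subgroup.center Q, ∀ μ, (σ z).eigenspace μ ≠ ⊤
  · obtain ⟨z, hz, hzμ⟩ := hA
    have hinv : ∀ μ, ∀ g, ∀ v ∈ (σ z).eigenspace μ, σ g v ∈ (σ z).eigenspace μ := by
      intro μ g v hv
      rw [Module.End.mem_eigenspace_iff] at hv ⊢
      rw [← Module.End.mul_apply, ← map_mul, ← Subgroup.mem_center_iff.mp hz g, map_mul,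
        Module.End.mul_apply, hv, map_smul]
    have hn1 : ∀ μ, finrank K ((σ z).eigenspace μ) ≤ n - 1 := by
      intro μ
      have := Submodule.finrank_lt (hzμ μ)
      omega
    have hn0 : 0 < n := by
      have := Submodule.finrank_lt (hzμ 0)
      omega
    rw [eq_bot_iff, ← hker]
    intro y hy
    apply mem_ker_of_iSup σ _ (hdiag z) y
    intro μ v hv
    have h1 := ih (n - 1) (by omega) Q hQ _ (resRep σ _ (hinv μ)) (hn1 μ)
    have h2 : y ∈ derivedSeries Q (Nat.log p (n - 1) + 1) :=
      derivedSeries_antitone Q (Nat.add_le_add_right (Nat.log_mono_right (Nat.sub_le n 1)) 1) hy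
    have h3 := MonoidHom.mem_ker.mp (h1 h2)
    have h4 := congrArg (fun f => ((f ⟨v, hv⟩ : (σ z).eigenspace μ) : V)) h3
    simpa [resRep_apply] using h4
  · push Not at hA
    obtain ⟨x, hx, hxc⟩ := exists_central_mod hQ (Subgroup.center Q) hc
    set f := commHom x hxc with hf
    set M := f.ker with hM
    have hcomm : commutator Q ≤ M := commutator_le_ker_commHom x hxc
    obtain ⟨g0, hg0⟩ : ∃ g0, f g0 ≠ 1 := by
      by_contra hcon
      push Not at hcon
      apply hx
      rw [Subgroup.mem_center_iff]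
      intro g
      have h1 := hcon g
      rw [hf, commHom_apply] at h1
      calc g * x = (g * x * g⁻¹ * x⁻¹) * (x * g) := by group
        _ = x * g := by rw [h1, one_mul]
    obtain ⟨μ0, hμ0⟩ := hA (f g0) (hxc g0)
    have hsc : ∀ v, σ (f g0) v = μ0 • v := by
      intro v
      have h1 : v ∈ (σ (f g0)).eigenspace μ0 := hμ0 ▸ Submodule.mem_top
      exact Module.End.mem_eigenspace_iff.mp h1
    have hμ1 : μ0 ≠ 1 := by
      rintro rfl
      apply hg0
      apply hσ
      rw [map_one]
      ext v
      simp [hsc v]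
    have hVnt : Nontrivial V := by
      by_contra hcon
      rw [not_nontrivial_iff_subsingleton] at hcon
      apply hg0
      apply hσ
      ext v
      exact Subsingleton.elim _ _
    obtain ⟨v0, hv0⟩ := exists_ne (0 : V)
    obtain ⟨k, hk⟩ := hQ (f g0)
    have hμk : μ0 ^ (p ^ k) = 1 := by
      have h1 : (σ (f g0)) ^ (p ^ k) = 1 := by rw [← map_pow, hk, map_one]
      have h2 : ∀ j : ℕ, ((σ (f g0)) ^ j) v0 = μ0 ^ j • v0 := by
        intro j
        induction j with
        | zero => simp
        | succ j ihj =>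
          rw [pow_succ', Module.End.mul_apply, ihj, map_smul, hsc, smul_smul, pow_succ]
      have h3 := h2 (p ^ k)
      rw [h1, Module.End.one_apply] at h3
      have h4 : (μ0 ^ (p ^ k) - 1) • v0 = 0 := by rw [sub_smul, one_smul, ← h3, sub_self]
      rcases smul_eq_zero.mp h4 with h5 | h5
      · exact sub_eq_zero.mp h5
      · exact absurd h5 hv0
    have hord : p ≤ orderOf μ0 := by
      obtain ⟨j, -, hj⟩ := (Nat.dvd_prime_pow hp).mp (orderOf_dvd_of_pow_eq_one hμk)
      have hj0 : j ≠ 0 := by
        rintro rfl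
        rw [pow_zero, orderOf_eq_one_iff] at hj
        exact hμ1 hj
      rw [hj]
      exact Nat.le_self_pow hj0 p
    have hinj : ∀ g : Q, Function.Injective (σ g) := by
      intro g a b hab
      have h1 := congrArg (σ g⁻¹) hab
      rwa [← Module.End.mul_apply, ← Module.End.mul_apply, ← map_mul, inv_mul_cancel, map_one,
        Module.End.one_apply, Module.End.one_apply] at h1
    have hshift : ∀ l : K, finrank K ((σ x).eigenspace l) ≤ finrank K ((σ x).eigenspace (μ0 * l)) := by
      intro l
      have hmap : ∀ v ∈ (σ x).eigenspace l, σ g0⁻¹ v ∈ (σ x).eigenspace (μ0 * l) := by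
        intro v hv
        rw [Module.End.mem_eigenspace_iff] at hv ⊢
        have h1 : x * g0⁻¹ = g0⁻¹ * f g0 * x := by
          rw [hf, commHom_apply]; group
        rw [← Module.End.mul_apply, ← map_mul, h1, map_mul, map_mul, Module.End.mul_apply,
          Module.End.mul_apply, hv, map_smul, hsc, map_smul, map_smul, smul_smul, mul_comm]
      apply LinearMap.finrank_le_finrank_of_injective (f := (σ g0⁻¹).restrict hmap)
      intro a b hab
      apply Subtype.ext
      apply hinj g0⁻¹
      exact congrArg Subtype.val hab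
    have hshift' : ∀ (l : K) (i : ℕ),
        finrank K ((σ x).eigenspace l) ≤ finrank K ((σ x).eigenspace (μ0 ^ i * l)) := by
      intro l i
      induction i with
      | zero => rw [pow_zero, one_mul]
      | succ i ihi =>
        refine ihi.trans ?_
        have := hshift (μ0 ^ i * l)
        rwa [← mul_assoc, ← pow_succ'] at this
    have hdim : ∀ l : K, p * finrank K ((σ x).eigenspace l) ≤ finrank K V := by
      intro l
      by_cases hl : l = 0
      · subst hl
        rw [Module.End.eigenspace_zero, LinearMap.ker_eq_bot.mpr (hinj x), finrank_bot]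
        simp
      · apply orbit_bound (σ x) p _ (fun i => μ0 ^ i * l)
        · intro a ha b hb hab
          have h1 : μ0 ^ a = μ0 ^ b := mul_right_cancel₀ hl hab
          exact pow_injOn_Iio_orderOf (lt_of_lt_of_le ha hord) (lt_of_lt_of_le hb hord) h1
        · intro i _
          exact hshift' l i
    have hpn : p ≤ n := by
      obtain ⟨l, hl⟩ : ∃ l, (σ x).eigenspace l ≠ ⊥ := by
        by_contra hcon
        push Not at hcon
        have h1 := hdiag x
        simp only [hcon, iSup_bot] at h1
        exact bot_ne_top h1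
      have h1 : 1 ≤ finrank K ((σ x).eigenspace l) := Submodule.one_le_finrank_iff.mpr hl
      calc p = p * 1 := (mul_one p).symm
        _ ≤ p * finrank K ((σ x).eigenspace l) := Nat.mul_le_mul_left p h1
        _ ≤ finrank K V := hdim l
        _ ≤ n := hn
    have hdim' : ∀ l : K, finrank K ((σ x).eigenspace l) ≤ n / p := by
      intro l
      rw [Nat.le_div_iff_mul_le hp.pos, mul_comm]
      exact (hdim l).trans hn
    set τ : M →* Module.End K V := σ.comp M.subtype with hτ
    have hinv : ∀ l, ∀ h : M, ∀ v ∈ (σ x).eigenspace l, τ h v ∈ (σ x).eigenspace l := by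
      intro l h v hv
      rw [Module.End.mem_eigenspace_iff] at hv ⊢
      have h1 : f h.1 = 1 := h.2
      rw [hf, commHom_apply] at h1
      have h2 : x * h.1 = h.1 * x := by
        calc x * h.1 = (h.1 * x * h.1⁻¹ * x⁻¹)⁻¹ * (h.1 * x) := by group
          _ = h.1 * x := by rw [h1, inv_one, one_mul]
      show σ x (σ h.1 v) = l • σ h.1 v
      rw [← Module.End.mul_apply, ← map_mul, h2, map_mul, Module.End.mul_apply, hv, map_smul]
    have hMbot : derivedSeries M (Nat.log p (n / p) + 1) = ⊥ := by
      rw [eq_bot_iff]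
      intro y hy
      have h0 : y ∈ τ.ker := by
        apply mem_ker_of_iSup τ _ (hdiag x) y
        intro l v hv
        have h1 := ih (n / p) (Nat.div_lt_self (lt_of_lt_of_le hp.pos hpn) hp.one_lt) M (hQ.to_subgroup M) _
          (resRep τ _ (hinv l)) (hdim' l)
        have h3 := MonoidHom.mem_ker.mp (h1 hy)
        have h4 := congrArg (fun f => ((f ⟨v, hv⟩ : (σ x).eigenspace l) : V)) h3
        simpa [resRep_apply] using h4
      rw [MonoidHom.mem_ker] at h0
      rw [Subgroup.mem_bot]
      apply Subtype.ext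
      apply hσ
      show σ y.1 = σ 1
      rw [map_one]
      exact h0
    rw [Nat.log_of_one_lt_of_le hp.one_lt hpn, eq_bot_iff]
    refine (derivedSeries_succ_le_map M hcomm _).trans ?_
    rw [hMbot, Subgroup.map_bot]

theorem coprime_aux (hpK : (p : K) ≠ 0) (n : ℕ) : Stmt.{u, v, w} K p n := by
  induction n using Nat.strong_induction_on with
  | _ n ih =>
    intro P _ _ hP V _ _ _ ρ hn
    apply le_ker_of_quotient
    have hq : IsPGroup p (P ⧸ ρ.ker) := hP.to_quotient _
    have hinj : Function.Injective (QuotientGroup.lift ρ.ker ρ le_rfl) := by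
      intro a b
      induction a using QuotientGroup.induction_on with
      | H a =>
        induction b using QuotientGroup.induction_on with
        | H b =>
          intro hab
          rw [QuotientGroup.lift_mk, QuotientGroup.lift_mk] at hab
          rw [QuotientGroup.eq, MonoidHom.mem_ker, map_mul, ← hab, ← map_mul, inv_mul_cancel, map_one]
    exact faithful_step hpK n ih (P ⧸ ρ.ker) hq V (QuotientGroup.lift ρ.ker ρ le_rfl) hinj hn

end Coprime

end Cfsg.Agent.Lib.Helper35.LinDL
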