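import Mathlib
import Cfsg.Agent.Lib.Helper12.PGroupFixed

/-!
# Derived length of linear `p`-groups, II: the defining characteristic
-/

set_option autoImplicit false

namespace Cfsg.Agent.Lib.Helper35.LinDL

open Module
open scoped commutatorElement

universe u v w

variable {K : Type w} [Field K] {V : Type v} [AddCommGroup V] [Module K V]
variable {P : Type u} [Group P]

/-- the ascending "fixed point" series of a representation -/
def fixSeries (ρ : P →* Module.End K V) : ℕ → Submodule K V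
  | 0 => ⊥
  | (i + 1) => ⨅ g, (fixSeries ρ i).comap (ρ g - 1)

theorem mem_fixSeries_succ (ρ : P →* Module.End K V) (i : ℕ) (v : V) :
    v ∈ fixSeries ρ (i + 1) ↔ ∀ g, ρ g v - v ∈ fixSeries ρ i := by
  simp [fixSeries, Submodule.mem_iInf]

theorem fixSeries_le_succ (ρ : P →* Module.End K V) (i : ℕ) :
    fixSeries ρ i ≤ fixSeries ρ (i + 1) := by
  induction i with
  | zero => exact bot_le
  | succ i ih =>
    intro v hv
    rw [mem_fixSeries_succ] at hv ⊢
    exact fun g => ih (hv g)

theorem fixSeries_mono (ρ : P →* Module.End K V) : Monotone (fixSeries ρ) :=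
  monotone_nat_of_le_succ (fixSeries_le_succ ρ)

theorem fixSeries_inv (ρ : P →* Module.End K V) (i : ℕ) (g : P) (v : V) (hv : v ∈ fixSeries ρ i) :
    ρ g v ∈ fixSeries ρ i := by
  have h1 : ρ g v - v ∈ fixSeries ρ i := by
    cases i with
    | zero =>
      have : v = 0 := hv
      subst this
      simp
    | succ i => exact fixSeries_le_succ ρ i ((mem_fixSeries_succ ρ i v).mp hv g)
  have h2 := (fixSeries ρ i).add_mem h1 hv
  simpa using h2

/-- elements shifting the series by `k` steps -/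
def shiftSub (ρ : P →* Module.End K V) (k : ℕ) : Subgroup P where
  carrier := {g | ∀ i, ∀ v ∈ fixSeries ρ (i + k), ρ g v - v ∈ fixSeries ρ i}
  one_mem' := by
    intro i v _
    simp
  mul_mem' := by
    intro a b ha hb i v hv
    have h1 : ρ (a * b) v - v = ρ a (ρ b v - v) + (ρ a v - v) := by
      simp [map_mul, map_sub]
    rw [h1]
    exact (fixSeries ρ i).add_mem (fixSeries_inv ρ i a _ (hb i v hv)) (ha i v hv)
  inv_mem' := by
    intro a ha i v hv
    have h1 : ρ a⁻¹ v - v = - ρ a⁻¹ (ρ a v - v) := by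
      rw [map_sub, ← Module.End.mul_apply, ← map_mul]
      simp
    rw [h1]
    exact (fixSeries ρ i).neg_mem (fixSeries_inv ρ i _ _ (ha i v hv))

theorem mem_shiftSub (ρ : P →* Module.End K V) (k : ℕ) (g : P) :
    g ∈ shiftSub ρ k ↔ ∀ i, ∀ v ∈ fixSeries ρ (i + k), ρ g v - v ∈ fixSeries ρ i := Iff.rfl

theorem commutator_shiftSub_le (ρ : P →* Module.End K V) (j k : ℕ) :
    ⁅shiftSub ρ j, shiftSub ρ k⁆ ≤ shiftSub ρ (j + k) := by
  rw [Subgroup.commutator_le]
  intro a ha b hb
  rw [mem_shiftSub] at ha hb ⊢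
  intro i v hv
  set w := ρ (a⁻¹ * b⁻¹) v with hw
  have hwm : w ∈ fixSeries ρ (i + (j + k)) := fixSeries_inv ρ _ _ _ hv
  have hv' : v = ρ (b * a) w := by
    rw [hw, ← Module.End.mul_apply, ← map_mul]
    simp [mul_assoc]
  have h1 : ρ ⁅a, b⁆ v = ρ (a * b) w := by
    rw [hw, ← Module.End.mul_apply, ← map_mul, commutatorElement_def]
    simp [mul_assoc]
  have h2 : ρ ⁅a, b⁆ v - v =
      (ρ a (ρ b w - w) - (ρ b w - w)) - (ρ b (ρ a w - w) - (ρ a w - w)) := by
    rw [h1]
    nth_rewrite 1 [hv']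
    simp only [map_mul, Module.End.mul_apply, map_sub]
    abel
  rw [h2]
  apply (fixSeries ρ i).sub_mem
  · apply ha i
    apply hb (i + j)
    rwa [add_assoc]
  · apply hb i
    apply ha (i + k)
    rwa [add_assoc, add_comm k j]

theorem derivedSeries_le_shiftSub (ρ : P →* Module.End K V) (m : ℕ) :
    derivedSeries P m ≤ shiftSub ρ (2 ^ m) := by
  induction m with
  | zero =>
    intro g _
    rw [mem_shiftSub]
    intro i v hv
    exact (mem_fixSeries_succ ρ i v).mp hv g
  | succ m ih =>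
    rw [derivedSeries_succ]
    refine (Subgroup.commutator_mono ih ih).trans ?_
    have := commutator_shiftSub_le ρ (2 ^ m) (2 ^ m)
    rwa [← two_mul, ← pow_succ'] at this

theorem shiftSub_le_ker (ρ : P →* Module.End K V) (k : ℕ) (hk : fixSeries ρ k = ⊤) :
    shiftSub ρ k ≤ ρ.ker := by
  intro g hg
  rw [mem_shiftSub] at hg
  rw [MonoidHom.mem_ker]
  ext v
  have h1 := hg 0 v (by rw [zero_add, hk]; exact Submodule.mem_top)
  have h2 : ρ g v - v = 0 := h1
  simpa using sub_eq_zero.mp h2

/-- quotient representation -/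
def quotRep (ρ : P →* Module.End K V) (U : Submodule K V) (hU : ∀ g, ∀ v ∈ U, ρ g v ∈ U) :
    P →* Module.End K (V ⧸ U) where
  toFun g := U.mapQ U (ρ g) (fun v hv => hU g v hv)
  map_one' := by
    ext v
    simp
  map_mul' a b := by
    ext v
    simp

theorem fixSeries_lt_succ [Finite P] (p : ℕ) [Fact p.Prime] [CharP K p] (hP : IsPGroup p P)
    (ρ : P →* Module.End K V) (i : ℕ) (hi : fixSeries ρ i ≠ ⊤) :
    fixSeries ρ i < fixSeries ρ (i + 1) := by
  refine lt_of_le_of_ne (fixSeries_le_succ ρ i) ?_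
  intro heq
  have hnt : Nontrivial (V ⧸ fixSeries ρ i) := Submodule.Quotient.nontrivial_iff.mpr hi
  obtain ⟨v, -, hv0, hv⟩ := Cfsg.Agent.Lib.Helper12.exists_fixed_ne_zero hP
    (quotRep ρ (fixSeries ρ i) (fixSeries_inv ρ i)) ⊤ (fun _ _ _ => Submodule.mem_top) top_ne_bot
  obtain ⟨v, rfl⟩ := Submodule.Quotient.mk_surjective _ v
  apply hv0
  rw [Submodule.Quotient.mk_eq_zero, heq, mem_fixSeries_succ]
  intro g
  have h1 := hv g
  rw [← Submodule.Quotient.eq]
  exact h1

theorem le_finrank_fixSeries [Finite P] [FiniteDimensional K V] (p : ℕ) [Fact p.Prime] [CharP K p]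
    (hP : IsPGroup p P) (ρ : P →* Module.End K V) (i : ℕ) :
    fixSeries ρ i = ⊤ ∨ i ≤ finrank K (fixSeries ρ i) := by
  induction i with
  | zero => right; exact Nat.zero_le _
  | succ i ih =>
    by_cases hi : fixSeries ρ i = ⊤
    · left
      exact top_le_iff.mp (hi ▸ fixSeries_le_succ ρ i)
    · right
      have h1 := ih.resolve_left hi
      have h2 := Submodule.finrank_lt_finrank_of_lt (fixSeries_lt_succ p hP ρ i hi)
      omega

theorem charP_aux [Finite P] [FiniteDimensional K V] (p : ℕ) [Fact p.Prime] [CharP K p]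
    (hP : IsPGroup p P) (ρ : P →* Module.End K V) (m : ℕ) (hm : finrank K V ≤ 2 ^ m) :
    derivedSeries P m ≤ ρ.ker := by
  refine (derivedSeries_le_shiftSub ρ m).trans (shiftSub_le_ker ρ _ ?_)
  rcases le_finrank_fixSeries p hP ρ (2 ^ m) with h | h
  · exact h
  · exact Submodule.eq_top_of_finrank_eq (le_antisymm (Submodule.finrank_le _) (hm.trans h))

end Cfsg.Agent.Lib.Helper35.LinDL
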