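import Mathlib
import Cfsg.Agent.Lib.Helper35.LinDLA

/-!
# Derived length of linear `p`-groups, III: representations defined over a finite field `F_q`
(the Frobenius twist gains the factor `e = ord_p(q)`)
-/

set_option autoImplicit false

namespace Cfsg.Agent.Lib.Helper35.LinDL

open Module

universe u v w

section Twist

variable (K : Type w) [Field K] [IsAlgClosed K] (p q e : ℕ) [Fact p.Prime]

/-- the statement proved by induction -/
def StmtF (m : ℕ) : Prop :=
  ∀ (P : Type u) [Group P] [Finite P] (_ : IsPGroup p P) (V : Type v) [AddCommGroup V] [Module K V]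
    [FiniteDimensional K V] (ρ : P →* Module.End K V) (φ : V →+ V) (_ : Function.Injective φ)
    (_ : ∀ (c : K) (v : V), φ (c • v) = c ^ q • φ v) (_ : ∀ g v, φ (ρ g v) = ρ g (φ v)),
    finrank K V ≤ m → derivedSeries P (Nat.log p (m / e) + 1) ≤ ρ.ker

variable {K p q e}

theorem finrank_eigenspace_twist {V : Type v} [AddCommGroup V] [Module K V] [FiniteDimensional K V]
    (hq : Function.Surjective (fun c : K => c ^ q)) (f : Module.End K V) (φ : V →+ V)
    (hφ : Function.Injective φ) (hsl : ∀ (c : K) (v : V), φ (c • v) = c ^ q • φ v)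
    (hc : ∀ v, φ (f v) = f (φ v)) (l : K) :
    finrank K (f.eigenspace l) ≤ finrank K (f.eigenspace (l ^ q)) := by
  have hmem : ∀ v ∈ f.eigenspace l, φ v ∈ f.eigenspace (l ^ q) := by
    intro v hv
    rw [Module.End.mem_eigenspace_iff] at hv ⊢
    rw [← hc, hv, hsl]
  let j : f.eigenspace l →+ f.eigenspace (l ^ q) :=
    { toFun := fun v => ⟨φ v.1, hmem v.1 v.2⟩
      map_zero' := by apply Subtype.ext; simp
      map_add' := by intro a b; apply Subtype.ext; simp }
  have h1 : Module.rank K (f.eigenspace l) ≤ Module.rank K (f.eigenspace (l ^ q)) := by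
    apply rank_le_of_surjective_injective (fun c : K => c ^ q) j hq
    · intro a b hab
      apply Subtype.ext
      apply hφ
      exact congrArg Subtype.val hab
    · intro r v
      apply Subtype.ext
      exact hsl r v.1
  apply Module.finrank_le_finrank_of_rank_le_rank
  · simpa using h1
  · exact Module.rank_lt_aleph0 _ _

theorem faithful_stepF (hpK : (p : K) ≠ 0) (he : e = orderOf (q : ZMod p)) (he0 : 0 < e)
    (hq : Function.Surjective (fun c : K => c ^ q)) (m : ℕ)
    (ih : ∀ m' < m, StmtF.{u, v, w} K p q e m')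
    (Q : Type u) [Group Q] [Finite Q] (hQ : IsPGroup p Q) (V : Type v) [AddCommGroup V] [Module K V]
    [FiniteDimensional K V] (σ : Q →* Module.End K V) (hσ : Function.Injective σ)
    (φ : V →+ V) (hφ : Function.Injective φ) (hsl : ∀ (c : K) (v : V), φ (c • v) = c ^ q • φ v)
    (hc : ∀ g v, φ (σ g v) = σ g (φ v))
    (hm : finrank K V ≤ m) : derivedSeries Q (Nat.log p (m / e) + 1) = ⊥ := by
  have hp : p.Prime := Fact.out
  have hdiag : ∀ y : Q, ⨆ μ, (σ y).eigenspace μ = ⊤ := by
    intro y
    obtain ⟨k, hk⟩ := hQ y
    apply iSup_eigenspace_eq_top (σ y) (m := p ^ k)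
    · rw [Nat.cast_pow]; exact pow_ne_zero _ hpK
    · rw [← map_pow, hk, map_one]
  have hker : σ.ker = ⊥ := (MonoidHom.ker_eq_bot_iff σ).mpr hσ
  by_cases hQ1 : Subsingleton Q
  · exact Subgroup.eq_bot_of_subsingleton _
  rw [not_subsingleton_iff_nontrivial] at hQ1
  have := hQ.center_nontrivial
  obtain ⟨⟨z, hz⟩, hz1⟩ := exists_ne (1 : Subgroup.center Q)
  have hz1' : z ≠ 1 := fun h => hz1 (Subtype.ext h)
  have hinv : ∀ μ, ∀ g, ∀ v ∈ (σ z).eigenspace μ, σ g v ∈ (σ z).eigenspace μ := by
    intro μ g v hv
    rw [Module.End.mem_eigenspace_iff] at hv ⊢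
    rw [← Module.End.mul_apply, ← map_mul, ← Subgroup.mem_center_iff.mp hz g, map_mul,
      Module.End.mul_apply, hv, map_smul]
  rw [eq_bot_iff, ← hker]
  intro y hy
  apply mem_ker_of_iSup σ _ (hdiag z) y
  intro l v hv
  by_cases hl : l = 1
  · subst hl
    have hne : (σ z).eigenspace 1 ≠ ⊤ := by
      intro htop
      apply hz1'
      apply hσ
      rw [map_one]
      ext w
      have h1 : w ∈ (σ z).eigenspace 1 := htop ▸ Submodule.mem_top
      rw [Module.End.mem_eigenspace_iff, one_smul] at h1
      simpa using h1
    have hlt := Submodule.finrank_lt hne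
    have hmem : ∀ w ∈ (σ z).eigenspace 1, φ w ∈ (σ z).eigenspace 1 := by
      intro w hw
      rw [Module.End.mem_eigenspace_iff, one_smul] at hw ⊢
      rw [← hc, hw]
    let φE : (σ z).eigenspace 1 →+ (σ z).eigenspace 1 :=
      { toFun := fun w => ⟨φ w.1, hmem w.1 w.2⟩
        map_zero' := by apply Subtype.ext; simp
        map_add' := by intro a b; apply Subtype.ext; simp }
    have h1 := ih (m - 1) (by omega) Q hQ _ (resRep σ _ (hinv 1)) φE
      (by
        intro a b hab
        apply Subtype.ext
        apply hφ
        exact congrArg Subtype.val hab)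
      (by
        intro c w
        apply Subtype.ext
        exact hsl c w.1)
      (by
        intro g w
        apply Subtype.ext
        exact hc g w.1)
      (by omega)
    have h2 : y ∈ derivedSeries Q (Nat.log p ((m - 1) / e) + 1) :=
      derivedSeries_antitone Q (Nat.add_le_add_right
        (Nat.log_mono_right (Nat.div_le_div_right (Nat.sub_le m 1))) 1) hy
    have h3 := MonoidHom.mem_ker.mp (h1 h2)
    have h4 := congrArg (fun f => ((f ⟨v, hv⟩ : (σ z).eigenspace 1) : V)) h3
    simpa [resRep_apply] using h4
  · by_cases hv0 : v = 0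
    · subst hv0; simp
    obtain ⟨k, hk⟩ := hQ z
    have hlk : l ^ (p ^ k) = 1 := by
      have h1 : (σ z) ^ (p ^ k) = 1 := by rw [← map_pow, hk, map_one]
      have hv' := Module.End.mem_eigenspace_iff.mp hv
      have h2 : ∀ j : ℕ, ((σ z) ^ j) v = l ^ j • v := by
        intro j
        induction j with
        | zero => simp
        | succ j ihj =>
          rw [pow_succ', Module.End.mul_apply, ihj, map_smul, hv', smul_smul, pow_succ]
      have h3 := h2 (p ^ k)
      rw [h1, Module.End.one_apply] at h3
      have h4 : (l ^ (p ^ k) - 1) • v = 0 := by rw [sub_smul, one_smul, ← h3, sub_self]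
      rcases smul_eq_zero.mp h4 with h5 | h5
      · exact sub_eq_zero.mp h5
      · exact absurd h5 hv0
    have hord : p ∣ orderOf l := by
      obtain ⟨j, -, hj⟩ := (Nat.dvd_prime_pow hp).mp (orderOf_dvd_of_pow_eq_one hlk)
      have hj0 : j ≠ 0 := by
        rintro rfl
        rw [pow_zero, orderOf_eq_one_iff] at hj
        exact hl hj
      rw [hj]
      exact dvd_pow_self p hj0
    have hshift : ∀ i : ℕ,
        finrank K ((σ z).eigenspace l) ≤ finrank K ((σ z).eigenspace (l ^ (q ^ i))) := by
      intro i
      induction i with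
      | zero => rw [pow_zero, pow_one]
      | succ i ihi =>
        refine ihi.trans ?_
        have := finrank_eigenspace_twist hq (σ z) φ hφ hsl (hc z) (l ^ (q ^ i))
        rwa [← pow_mul, ← pow_succ] at this
    have hdim : e * finrank K ((σ z).eigenspace l) ≤ finrank K V := by
      apply orbit_bound (σ z) e _ (fun i => l ^ (q ^ i))
      · intro a ha b hb hab
        have hab' : l ^ (q ^ a) = l ^ (q ^ b) := hab
        have hl0 : l ≠ 0 := by
          rintro rfl
          rw [zero_pow (pow_ne_zero _ hp.ne_zero)] at hlk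
          exact zero_ne_one hlk
        have hu : orderOf (Units.mk0 l hl0) = orderOf l := by
          rw [← orderOf_units, Units.val_mk0]
        have hab'' : (Units.mk0 l hl0) ^ (q ^ a) = (Units.mk0 l hl0) ^ (q ^ b) := by
          apply Units.ext
          simpa using hab'
        have h1 : q ^ a ≡ q ^ b [MOD orderOf l] := hu ▸ pow_eq_pow_iff_modEq.mp hab''
        have h2 : q ^ a ≡ q ^ b [MOD p] := h1.of_dvd hord
        have h3 : (q : ZMod p) ^ a = (q : ZMod p) ^ b := by
          have := (ZMod.natCast_eq_natCast_iff _ _ p).mpr h2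
          simpa using this
        rw [Set.mem_Iio, he] at ha hb
        exact pow_injOn_Iio_orderOf ha hb h3
      · intro i _
        exact hshift i
    have hdim' : finrank K ((σ z).eigenspace l) ≤ m / e := by
      rw [Nat.le_div_iff_mul_le he0, mul_comm]
      exact hdim.trans hm
    have h1 := coprime_aux hpK (m / e) Q hQ _ (resRep σ _ (hinv l)) hdim'
    have h3 := MonoidHom.mem_ker.mp (h1 hy)
    have h4 := congrArg (fun f => ((f ⟨v, hv⟩ : (σ z).eigenspace l) : V)) h3
    simpa [resRep_apply] using h4

theorem twist_aux (hpK : (p : K) ≠ 0) (he : e = orderOf (q : ZMod p)) (he0 : 0 < e)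
    (hq : Function.Surjective (fun c : K => c ^ q)) (m : ℕ) : StmtF.{u, v, w} K p q e m := by
  induction m using Nat.strong_induction_on with
  | _ m ih =>
    intro P _ _ hP V _ _ _ ρ φ hφ hsl hc hm
    apply le_ker_of_quotient
    have hq' : IsPGroup p (P ⧸ ρ.ker) := hP.to_quotient _
    have hinj : Function.Injective (QuotientGroup.lift ρ.ker ρ le_rfl) := by
      intro a b
      induction a using QuotientGroup.induction_on with
      | H a =>
        induction b using QuotientGroup.induction_on with
        | H b =>
          intro hab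
          rw [QuotientGroup.lift_mk, QuotientGroup.lift_mk] at hab
          rw [QuotientGroup.eq, MonoidHom.mem_ker, map_mul, ← hab, ← map_mul, inv_mul_cancel, map_one]
    refine faithful_stepF hpK he he0 hq m ih (P ⧸ ρ.ker) hq' V (QuotientGroup.lift ρ.ker ρ le_rfl) hinj
      φ hφ hsl ?_ hm
    intro g v
    induction g using QuotientGroup.induction_on with
    | H g =>
      rw [QuotientGroup.lift_mk]
      exact hc g v

end Twist

end Cfsg.Agent.Lib.Helper35.LinDL
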