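import Mathlib
import Cfsg.Agent.Lib.Helper35.LinDLC

/-!
# Derived length of linear `p`-groups, IV: `p`-subgroups of `GL_n(q)`, `p ∤ q`
-/

set_option autoImplicit false

namespace Cfsg.Agent.Lib.Helper35.LinDL

open Module

theorem gl_bound {F : Type*} [Field F] [Fintype F] (p : ℕ) [Fact p.Prime]
    (hpq : ¬ p ∣ Fintype.card F) (n : ℕ) (P : Subgroup (GL (Fin n) F)) (hP : IsPGroup p P) :
    derivedSeries ↥P (Nat.log p (n / orderOf (Fintype.card F : ZMod p)) + 1) = ⊥ := by
  classical
  have hp : p.Prime := Fact.out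
  set q := Fintype.card F with hq
  have hpF : (p : F) ≠ 0 := by
    intro h
    have : CharP F p := (CharP.charP_iff_prime_eq_zero hp).mpr h
    obtain ⟨k, -, hk⟩ := FiniteField.card F p
    apply hpq
    rw [hq, hk]
    exact dvd_pow_self p k.ne_zero
  let K := AlgebraicClosure F
  have hpK : (p : K) ≠ 0 := by
    intro h
    apply hpF
    apply (algebraMap F K).injective
    rw [map_natCast, h, map_zero]
  have hq0 : 0 < q := Fintype.card_pos
  have hsurj : Function.Surjective (fun c : K => c ^ q) := by
    intro c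
    obtain ⟨z, hz⟩ := IsAlgClosed.exists_pow_nat_eq c hq0
    exact ⟨z, hz⟩
  have he0 : 0 < orderOf (q : ZMod p) := by
    have hq1 : (q : ZMod p) ≠ 0 := by
      rw [Ne, ZMod.natCast_eq_zero_iff]
      exact hpq
    rw [orderOf_pos_iff, isOfFinOrder_iff_pow_eq_one]
    exact ⟨p - 1, Nat.sub_pos_of_lt hp.one_lt, ZMod.pow_card_sub_one_eq_one hq1⟩
  let τ : P →* Module.End K (Fin n → K) :=
    (MonoidHomClass.toMonoidHom (Matrix.toLinAlgEquiv' :
      Matrix (Fin n) (Fin n) K ≃ₐ[K] Module.End K (Fin n → K))).comp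
      (((algebraMap F K).mapMatrix : Matrix (Fin n) (Fin n) F →+* Matrix (Fin n) (Fin n) K).toMonoidHom.comp
        ((Units.coeHom _).comp P.subtype))
  have hτ : Function.Injective τ := by
    intro a b hab
    apply Subtype.ext
    apply Units.ext
    have h1 := Matrix.toLinAlgEquiv'.injective hab
    exact Matrix.map_injective (algebraMap F K).injective h1
  have hτa : ∀ (g : P) (v : Fin n → K) (i : Fin n),
      τ g v i = ∑ j, algebraMap F K ((g.1 : Matrix (Fin n) (Fin n) F) i j) * v j := by
    intro g v i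
    show (Matrix.toLinAlgEquiv' (((g.1 : Matrix (Fin n) (Fin n) F)).map (algebraMap F K))) v i = _
    rw [Matrix.toLinAlgEquiv'_apply, Matrix.mulVec, dotProduct]
    rfl
  let Fr := FiniteField.frobeniusAlgHom F K
  have hFr : ∀ c : K, Fr c = c ^ q := fun c => rfl
  let φ : (Fin n → K) →+ (Fin n → K) :=
    { toFun := fun v i => Fr (v i)
      map_zero' := by ext i; simp
      map_add' := by intro a b; ext i; simp }
  have hφa : ∀ v i, φ v i = Fr (v i) := fun _ _ => rfl
  have h1 := twist_aux (K := K) (p := p) (q := q) hpK rfl he0 hsurj n P hP (Fin n → K) τ φ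
    (by
      intro a b hab
      ext i
      have := congrFun hab i
      rw [hφa, hφa] at this
      exact Fr.toRingHom.injective this)
    (by
      intro c v
      ext i
      rw [hφa, Pi.smul_apply, Pi.smul_apply, smul_eq_mul, smul_eq_mul, map_mul, hFr c, hφa])
    (by
      intro g v
      ext i
      rw [hφa, hτa, hτa, map_sum]
      apply Finset.sum_congr rfl
      intro j _
      rw [map_mul, AlgHom.commutes, hφa])
    (by rw [Module.finrank_fin_fun])
  rwa [(MonoidHom.ker_eq_bot_iff τ).mpr hτ, le_bot_iff] at h1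

end Cfsg.Agent.Lib.Helper35.LinDL
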