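import Mathlib
import Cfsg.Agent.S4014

/-!
# Derived length of linear `p`-groups, V: iterated wreath products inside `GL_n(q)`
-/

set_option autoImplicit false

namespace Cfsg.Agent.Lib.Helper35.LinDL

open Module RegularWreathProduct

universe u v

theorem iterated_ne_bot' (G : Type u) [Group G] (q0 : G) (hq0 : q0 ≠ 1) :
    ∀ k : ℕ, derivedSeries (IteratedWreathProduct G (k + 1)) k ≠ ⊥ := by
  intro k
  induction k with
  | zero =>
    intro h
    rw [derivedSeries_zero] at h
    let w : IteratedWreathProduct G (0 + 1) :=
      (RegularWreathProduct.inl q0 : IteratedWreathProduct G 0 ≀ᵣ G)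
    have h1 : w ∈ (⊤ : Subgroup (IteratedWreathProduct G (0 + 1))) := Subgroup.mem_top _
    rw [h, Subgroup.mem_bot] at h1
    have h2 : (RegularWreathProduct.inl q0 : IteratedWreathProduct G 0 ≀ᵣ G) = 1 := h1
    exact hq0 (congrArg RegularWreathProduct.right h2)
  | succ k ih =>
    intro h
    exact ih (Cfsg.Agent.S4014.wreath_derived q0 hq0 k h)

variable {F : Type v} [Field F]

/-- the imprimitive representation of a regular wreath product -/
def wrRep {D Q : Type u} [Group D] [Group Q] {U : Type v} [AddCommGroup U] [Module F U]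
    (τ : D →* Module.End F U) : D ≀ᵣ Q →* Module.End F (Q → U) where
  toFun w := LinearMap.pi (fun x => (τ (w.left x)).comp (LinearMap.proj (w.right⁻¹ * x)))
  map_one' := by
    ext x u
    simp
  map_mul' a b := by
    ext x u
    simp [mul_assoc]

theorem wrRep_apply {D Q : Type u} [Group D] [Group Q] {U : Type v} [AddCommGroup U] [Module F U]
    (τ : D →* Module.End F U) (w : D ≀ᵣ Q) (v : Q → U) (x : Q) :
    wrRep τ w v x = τ (w.left x) (v (w.right⁻¹ * x)) := rfl

theorem wrRep_injective {D Q : Type u} [Group D] [Group Q] {U : Type v} [AddCommGroup U] [Module F U]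
    [Nontrivial U] (τ : D →* Module.End F U) (hτ : Function.Injective τ) :
    Function.Injective (wrRep (Q := Q) τ) := by
  classical
  rw [injective_iff_map_eq_one]
  intro w hw
  obtain ⟨u, hu⟩ := exists_ne (0 : U)
  have h1 : ∀ (v : Q → U) (x : Q), τ (w.left x) (v (w.right⁻¹ * x)) = v x := by
    intro v x
    rw [← wrRep_apply, hw]
    rfl
  have hr : w.right = 1 := by
    by_contra hne
    have h2 := h1 (Pi.single 1 u) 1
    rw [mul_one, Pi.single_eq_same, Pi.single_eq_of_ne (by simpa using hne), map_zero] at h2
    exact hu h2.symm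
  have hl : w.left = 1 := by
    funext x
    apply hτ
    rw [Pi.one_apply, map_one]
    ext u'
    have h2 := h1 (Pi.single x u') x
    rw [hr, inv_one, one_mul, Pi.single_eq_same] at h2
    simpa using h2
  cases w
  simp only at hr hl
  subst hr hl
  rfl

theorem exists_rep (G : Type v) [Group G] [Finite G] (e : ℕ) (he : 0 < e)
    (τ0 : G →* Module.End F (Fin e → F)) (h0 : Function.Injective τ0) (k : ℕ) :
    ∃ (U : Type v) (_ : AddCommGroup U) (_ : Module F U) (_ : Module.Finite F U)
      (τ : IteratedWreathProduct G (k + 1) →* Module.End F U),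
      Function.Injective τ ∧ finrank F U = e * (Nat.card G) ^ k := by
  induction k with
  | zero =>
    refine ⟨Fin e → F, inferInstance, inferInstance, inferInstance,
      τ0.comp (rightHom : IteratedWreathProduct G 0 ≀ᵣ G →* G), ?_, by simp⟩
    apply h0.comp
    intro a b hab
    have hab' : a.right = b.right := hab
    cases a; cases b
    simp only at hab'
    subst hab'
    congr 1
    funext x
    exact Subsingleton.elim (α := PUnit) _ _
  | succ k ih =>
    obtain ⟨U, _, _, _, τ, hτ, hU⟩ := ih
    have : Fintype G := Fintype.ofFinite G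
    have hnt : Nontrivial U := by
      apply Module.nontrivial_of_finrank_pos (R := F)
      rw [hU]
      exact Nat.mul_pos he (pow_pos Nat.card_pos _)
    refine ⟨G → U, inferInstance, inferInstance, inferInstance,
      (wrRep τ : IteratedWreathProduct G (k + 1) ≀ᵣ G →* _), wrRep_injective τ hτ, ?_⟩
    rw [Module.finrank_pi_fintype]
    simp only [hU, Finset.sum_const, Finset.card_univ, smul_eq_mul, Nat.card_eq_fintype_card]
    ring

/-- a group with a faithful representation of dimension `≤ n` embeds in `GL_n` -/
theorem exists_embedding_GL {W : Type u} [Group W] {U : Type v} [AddCommGroup U] [Module F U]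
    [Module.Finite F U] (τ : W →* Module.End F U) (hτ : Function.Injective τ) (n : ℕ)
    (hn : finrank F U ≤ n) : ∃ f : W →* GL (Fin n) F, Function.Injective f := by
  have hfr : finrank F (U × (Fin (n - finrank F U) → F)) = finrank F (Fin n → F) := by
    rw [Module.finrank_prod, Module.finrank_fin_fun, Module.finrank_fin_fun]
    omega
  let E : (U × (Fin (n - finrank F U) → F)) ≃ₗ[F] (Fin n → F) := LinearEquiv.ofFinrankEq _ _ hfr
  let τ1 : W →* Module.End F (U × (Fin (n - finrank F U) → F)) :=
    { toFun := fun w => (τ w).prodMap LinearMap.id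
      map_one' := by
        ext <;> simp
      map_mul' := by
        intro a b
        ext <;> simp }
  have hτ1 : Function.Injective τ1 := by
    intro a b hab
    apply hτ
    ext u
    have := congrArg (fun f : Module.End F (U × (Fin (n - finrank F U) → F)) => (f (u, 0)).1) hab
    simpa [τ1] using this
  let τ2 : W →* Matrix (Fin n) (Fin n) F :=
    (MonoidHomClass.toMonoidHom (Matrix.toLinAlgEquiv' :
      Matrix (Fin n) (Fin n) F ≃ₐ[F] Module.End F (Fin n → F)).symm).comp
      ((MonoidHomClass.toMonoidHom (LinearEquiv.conjAlgEquiv F E)).comp τ1)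
  have hτ2 : Function.Injective τ2 := by
    intro a b hab
    apply hτ1
    have h1 := (Matrix.toLinAlgEquiv' :
      Matrix (Fin n) (Fin n) F ≃ₐ[F] Module.End F (Fin n → F)).symm.injective hab
    exact (LinearEquiv.conjAlgEquiv F E).injective h1
  refine ⟨τ2.toHomUnits, ?_⟩
  intro a b hab
  apply hτ2
  have := congrArg Units.val hab
  simpa using this

end Cfsg.Agent.Lib.Helper35.LinDL
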