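import Mathlib
import Cfsg.Agent.Lib.Helper35.LinDLE

/-!
# Derived length of linear `p`-groups, VI: lower bound for Sylow `p`-subgroups of `GL_n(q)`
-/

set_option autoImplicit false

namespace Cfsg.Agent.Lib.Helper35.LinDL

open Module

theorem gl_lower {F : Type*} [Field F] [Fintype F] (p : ℕ) [Fact p.Prime]
    (hpq : ¬ p ∣ Fintype.card F) (n : ℕ) (hn : orderOf (Fintype.card F : ZMod p) ≤ n)
    (P : Sylow p (GL (Fin n) F)) :
    derivedSeries ↥(P : Subgroup (GL (Fin n) F))
      (Nat.log p (n / orderOf (Fintype.card F : ZMod p))) ≠ ⊥ := by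
  classical
  have hp : p.Prime := Fact.out
  set q := Fintype.card F with hq
  set e := orderOf (q : ZMod p) with he
  have he0 : 0 < e := by
    have hq1 : (q : ZMod p) ≠ 0 := by
      rw [Ne, ZMod.natCast_eq_zero_iff]
      exact hpq
    rw [he, orderOf_pos_iff, isOfFinOrder_iff_pow_eq_one]
    exact ⟨p - 1, Nat.sub_pos_of_lt hp.one_lt, ZMod.pow_card_sub_one_eq_one hq1⟩
  have hdvd : p ∣ Nat.card (GL (Fin e) F) := by
    rw [Matrix.card_GL_field]
    have h1 : p ∣ q ^ e - q ^ ((⟨0, he0⟩ : Fin e) : ℕ) := by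
      have h2 : (q : ZMod p) ^ e = 1 := by rw [he]; exact pow_orderOf_eq_one _
      have h3 : 1 ≤ q ^ e := Nat.one_le_pow _ _ Fintype.card_pos
      rw [pow_zero, ← ZMod.natCast_eq_zero_iff, Nat.cast_sub h3, Nat.cast_pow, h2]
      simp
    exact h1.trans (Finset.dvd_prod_of_mem _ (Finset.mem_univ _))
  obtain ⟨x, hx⟩ := exists_prime_orderOf_dvd_card' p hdvd
  let G := Subgroup.zpowers x
  have hG : Nat.card G = p := by rw [Nat.card_zpowers, hx]
  have hGfin : Finite G := Nat.finite_of_card_ne_zero (by rw [hG]; exact hp.ne_zero)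
  obtain ⟨q0, hq0⟩ : ∃ q0 : G, q0 ≠ 1 := by
    have : Nontrivial G := by
      rw [← Finite.one_lt_card_iff_nontrivial, hG]; exact hp.one_lt
    exact exists_ne 1
  let τ0 : G →* Module.End F (Fin e → F) :=
    (MonoidHomClass.toMonoidHom (Matrix.toLinAlgEquiv' :
      Matrix (Fin e) (Fin e) F ≃ₐ[F] Module.End F (Fin e → F))).comp
      ((Units.coeHom _).comp (Subgroup.zpowers x).subtype)
  have hτ0 : Function.Injective τ0 := by
    intro a b hab
    apply Subtype.ext
    apply Units.ext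
    exact Matrix.toLinAlgEquiv'.injective hab
  set k := Nat.log p (n / e) with hk
  have hne : n / e ≠ 0 := by
    have := (Nat.one_le_div_iff he0).mpr hn
    omega
  have hdim : e * p ^ k ≤ n := by
    calc e * p ^ k ≤ e * (n / e) := Nat.mul_le_mul_left e (Nat.pow_log_le_self p hne)
      _ ≤ n := Nat.mul_div_le n e
  obtain ⟨U, _, _, _, τ, hτ, hU⟩ := exists_rep G e he0 τ0 hτ0 k
  rw [hG] at hU
  obtain ⟨f1, hf1⟩ := exists_embedding_GL τ hτ n (hU ▸ hdim)
  have hW : IsPGroup p (IteratedWreathProduct G (k + 1)) := by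
    apply IsPGroup.of_card (n := ∑ i ∈ Finset.range (k + 1), p ^ i)
    rw [IteratedWreathProduct.card, hG]
  have hR : IsPGroup p f1.range := hW.of_surjective f1.rangeRestrict f1.rangeRestrict_surjective
  obtain ⟨Q, hQ⟩ := hR.exists_le_sylow
  let Φ : IteratedWreathProduct G (k + 1) →* ↥(P : Subgroup (GL (Fin n) F)) :=
    (Sylow.equiv Q P).toMonoidHom.comp ((Subgroup.inclusion hQ).comp f1.rangeRestrict)
  have hΦ : Function.Injective Φ := by
    refine (Sylow.equiv Q P).injective.comp ((Subgroup.inclusion_injective hQ).comp ?_)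
    exact MonoidHom.rangeRestrict_injective_iff.2 hf1
  intro h
  have h1 := map_derivedSeries_le_derivedSeries Φ k
  rw [h, le_bot_iff, Subgroup.map_eq_bot_iff_of_injective _ hΦ] at h1
  exact iterated_ne_bot' G q0 hq0 k h1

end Cfsg.Agent.Lib.Helper35.LinDL
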