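import Mathlib
import Cfsg.Agent.S4014

/-!
# Wreath products inside symplectic groups
-/

set_option autoImplicit false

namespace Cfsg.Agent.Lib.Helper35.LinDL

open Module RegularWreathProduct Matrix

universe u v

variable {F : Type v} [Field F]

/-- the standard symplectic form -/
def om (l : Type) [Fintype l] (a b : l ⊕ l → F) : F :=
  ∑ i, (a (Sum.inr i) * b (Sum.inl i) - a (Sum.inl i) * b (Sum.inr i))

theorem om_eq (l : Type) [Fintype l] [DecidableEq l] (a b : l ⊕ l → F) :
    om l a b = a ⬝ᵥ (J l F *ᵥ b) := by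
  unfold om J
  rw [dotProduct, Fintype.sum_sum_type, Finset.sum_sub_distrib]
  have h1 : ∀ i : l, (fromBlocks 0 (-1) 1 0 *ᵥ b : l ⊕ l → F) (Sum.inl i) = - b (Sum.inr i) := by
    intro i
    rw [mulVec, dotProduct, Fintype.sum_sum_type]
    simp [Matrix.one_apply]
  have h2 : ∀ i : l, (fromBlocks 0 (-1) 1 0 *ᵥ b : l ⊕ l → F) (Sum.inr i) = b (Sum.inl i) := by
    intro i
    rw [mulVec, dotProduct, Fintype.sum_sum_type]
    simp [Matrix.one_apply]
  simp only [h1, h2, mul_neg, Finset.sum_neg_distrib]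
  ring

theorem mulVec_dotProduct' {I : Type} [Fintype I] (A : Matrix I I F) (a x : I → F) :
    (A *ᵥ a) ⬝ᵥ x = a ⬝ᵥ (Aᵀ *ᵥ x) := by
  rw [dotProduct_comm, Matrix.dotProduct_mulVec, ← Matrix.mulVec_transpose, dotProduct_comm]

theorem om_mulVec (l : Type) [Fintype l] [DecidableEq l] {A : Matrix (l ⊕ l) (l ⊕ l) F}
    (hA : A ∈ symplecticGroup l F) (a b : l ⊕ l → F) : om l (A *ᵥ a) (A *ᵥ b) = om l a b := by
  rw [om_eq, om_eq, mulVec_dotProduct', Matrix.mulVec_mulVec, Matrix.mulVec_mulVec,
    SymplecticGroup.mem_iff'.mp hA]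

theorem mem_symplectic_of_om (l : Type) [Fintype l] [DecidableEq l] {A : Matrix (l ⊕ l) (l ⊕ l) F}
    (hA : ∀ a b, om l (A *ᵥ a) (A *ᵥ b) = om l a b) : A ∈ symplecticGroup l F := by
  rw [SymplecticGroup.mem_iff']
  ext i j
  have h := hA (Pi.single i 1) (Pi.single j 1)
  rw [om_eq, om_eq, mulVec_dotProduct', Matrix.mulVec_mulVec, Matrix.mulVec_mulVec] at h
  simpa using h

/-- the natural representation of the symplectic group -/
def toEnd (l : Type) [Fintype l] [DecidableEq l] :
    symplecticGroup l F →* Module.End F (l ⊕ l → F) :=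
  (MonoidHomClass.toMonoidHom (Matrix.toLinAlgEquiv' :
    Matrix (l ⊕ l) (l ⊕ l) F ≃ₐ[F] Module.End F (l ⊕ l → F))).comp (symplecticGroup l F).subtype

theorem toEnd_apply (l : Type) [Fintype l] [DecidableEq l] (A : symplecticGroup l F)
    (a : l ⊕ l → F) : toEnd l A a = A.1 *ᵥ a := rfl

theorem toEnd_injective (l : Type) [Fintype l] [DecidableEq l] :
    Function.Injective (toEnd (F := F) l) := by
  intro a b hab
  apply Subtype.ext
  exact Matrix.toLinAlgEquiv'.injective hab

theorem om_toEnd (l : Type) [Fintype l] [DecidableEq l] (A : symplecticGroup l F)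
    (a b : l ⊕ l → F) : om l (toEnd l A a) (toEnd l A b) = om l a b :=
  om_mulVec l A.2 a b

/-- a representation preserving the standard form maps to the symplectic group -/
def ofEnd {W : Type u} [Group W] (l : Type) [Fintype l] [DecidableEq l]
    (τ : W →* Module.End F (l ⊕ l → F)) (h : ∀ g a b, om l (τ g a) (τ g b) = om l a b) :
    W →* symplecticGroup l F :=
  ((MonoidHomClass.toMonoidHom (Matrix.toLinAlgEquiv' :
    Matrix (l ⊕ l) (l ⊕ l) F ≃ₐ[F] Module.End F (l ⊕ l → F)).symm).comp τ).codRestrict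
    (symplecticGroup l F) (by
      intro g
      apply mem_symplectic_of_om
      intro a b
      have h1 : ∀ c, ((Matrix.toLinAlgEquiv' :
          Matrix (l ⊕ l) (l ⊕ l) F ≃ₐ[F] Module.End F (l ⊕ l → F)).symm (τ g)) *ᵥ c = τ g c := by
        intro c
        rw [← Matrix.toLinAlgEquiv'_apply, AlgEquiv.apply_symm_apply]
      show om l (((Matrix.toLinAlgEquiv' :
          Matrix (l ⊕ l) (l ⊕ l) F ≃ₐ[F] Module.End F (l ⊕ l → F)).symm (τ g)) *ᵥ a)
          (((Matrix.toLinAlgEquiv' :
          Matrix (l ⊕ l) (l ⊕ l) F ≃ₐ[F] Module.End F (l ⊕ l → F)).symm (τ g)) *ᵥ b) = _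
      rw [h1, h1, h])

theorem ofEnd_injective {W : Type u} [Group W] (l : Type) [Fintype l] [DecidableEq l]
    (τ : W →* Module.End F (l ⊕ l → F)) (h : ∀ g a b, om l (τ g a) (τ g b) = om l a b)
    (hτ : Function.Injective τ) : Function.Injective (ofEnd l τ h) := by
  intro a b hab
  apply hτ
  have h1 := congrArg Subtype.val hab
  exact (Matrix.toLinAlgEquiv' :
    Matrix (l ⊕ l) (l ⊕ l) F ≃ₐ[F] Module.End F (l ⊕ l → F)).symm.injective h1

/-- the imprimitive representation of a regular wreath product (universe-flexible version) -/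
def wrRepG {D : Type u} {Q : Type} [Group D] [Group Q] {U : Type v} [AddCommGroup U] [Module F U]
    (τ : D →* Module.End F U) : D ≀ᵣ Q →* Module.End F (Q → U) where
  toFun w := LinearMap.pi (fun x => (τ (w.left x)).comp (LinearMap.proj (w.right⁻¹ * x)))
  map_one' := by
    ext x u
    simp
  map_mul' a b := by
    ext x u
    simp [mul_assoc]

theorem wrRepG_apply {D : Type u} {Q : Type} [Group D] [Group Q] {U : Type v} [AddCommGroup U]
    [Module F U] (τ : D →* Module.End F U) (w : D ≀ᵣ Q) (v : Q → U) (x : Q) :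
    wrRepG τ w v x = τ (w.left x) (v (w.right⁻¹ * x)) := rfl

theorem wrRepG_injective {D : Type u} {Q : Type} [Group D] [Group Q] {U : Type v} [AddCommGroup U]
    [Module F U] [Nontrivial U] (τ : D →* Module.End F U) (hτ : Function.Injective τ) :
    Function.Injective (wrRepG (Q := Q) τ) := by
  classical
  rw [injective_iff_map_eq_one]
  intro w hw
  obtain ⟨u, hu⟩ := exists_ne (0 : U)
  have h1 : ∀ (v : Q → U) (x : Q), τ (w.left x) (v (w.right⁻¹ * x)) = v x := by
    intro v x
    rw [← wrRepG_apply, hw]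
    rfl
  have hr : w.right = 1 := by
    by_contra hne
    have h2 := h1 (Pi.single 1 u) 1
    rw [mul_one, Pi.single_eq_same, Pi.single_eq_of_ne (by simpa using hne), map_zero] at h2
    exact hu h2.symm
  have hl : w.left = 1 := by
    funext x
    apply hτ
    rw [Pi.one_apply, map_one]
    ext u'
    have h2 := h1 (Pi.single x u') x
    rw [hr, inv_one, one_mul, Pi.single_eq_same] at h2
    simpa using h2
  cases w
  simp only at hr hl
  subst hr hl
  rfl

/-- regrouping of coordinates -/
def psi (Q l : Type) : (Q → (l ⊕ l → F)) ≃ₗ[F] ((Q × l) ⊕ (Q × l) → F) where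
  toFun u := Sum.elim (fun a => u a.1 (Sum.inl a.2)) (fun a => u a.1 (Sum.inr a.2))
  invFun w := fun x => Sum.elim (fun i => w (Sum.inl (x, i))) (fun i => w (Sum.inr (x, i)))
  map_add' := by intro a b; ext (c | c) <;> rfl
  map_smul' := by intro r a; ext (c | c) <;> rfl
  left_inv := by intro u; ext x (i | i) <;> rfl
  right_inv := by intro w; ext (⟨x, i⟩ | ⟨x, i⟩) <;> rfl

theorem om_psi (Q l : Type) [Fintype Q] [Fintype l] (a b : Q → (l ⊕ l → F)) :
    om (Q × l) (psi Q l a) (psi Q l b) = ∑ x, om l (a x) (b x) := by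
  unfold om
  rw [Fintype.sum_prod_type]
  rfl

theorem wreath_step {W : Type u} {Q : Type} [Group W] [Group Q] [Fintype Q] [DecidableEq Q]
    {l : Type} [Fintype l] [DecidableEq l] [Nonempty l]
    (f : W →* symplecticGroup l F) (hf : Function.Injective f) :
    ∃ f' : W ≀ᵣ Q →* symplecticGroup (Q × l) F, Function.Injective f' := by
  let τ : W →* Module.End F (l ⊕ l → F) := (toEnd l).comp f
  have hτ : Function.Injective τ := (toEnd_injective l).comp hf
  let τ' : W ≀ᵣ Q →* Module.End F ((Q × l) ⊕ (Q × l) → F) :=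
    (MonoidHomClass.toMonoidHom (LinearEquiv.conjAlgEquiv F (psi (F := F) Q l))).comp (wrRepG τ)
  have hτ' : Function.Injective τ' :=
    (LinearEquiv.conjAlgEquiv F (psi (F := F) Q l)).injective.comp (wrRepG_injective τ hτ)
  have happ : ∀ g a, τ' g a = psi Q l (wrRepG τ g ((psi Q l).symm a)) := fun g a => rfl
  refine ⟨ofEnd (Q × l) τ' ?_, ofEnd_injective _ _ _ hτ'⟩
  intro g a b
  rw [happ, happ, om_psi]
  conv_rhs => rw [← (psi (F := F) Q l).apply_symm_apply a, ← (psi (F := F) Q l).apply_symm_apply b,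
    om_psi]
  simp only [wrRepG_apply]
  have h1 : ∀ x, om l (τ (g.left x) ((psi Q l).symm a (g.right⁻¹ * x)))
      (τ (g.left x) ((psi Q l).symm b (g.right⁻¹ * x))) =
      om l ((psi Q l).symm a (g.right⁻¹ * x)) ((psi Q l).symm b (g.right⁻¹ * x)) := by
    intro x
    exact om_toEnd l _ _ _
  simp only [h1]
  exact Equiv.sum_comp (Equiv.mulLeft g.right⁻¹)
    (fun x => om l ((psi Q l).symm a x) ((psi Q l).symm b x))

section Extend

variable {l m : Type} (ι : l ↪ m)

/-- restriction of coordinates -/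
def resL : (m ⊕ m → F) →ₗ[F] (l ⊕ l → F) := LinearMap.funLeft F F (Sum.map ι ι)

/-- extension by zero -/
noncomputable def extL : (l ⊕ l → F) →ₗ[F] (m ⊕ m → F) :=
  Function.ExtendByZero.linearMap F (Sum.map ι ι)

theorem sumMap_injective : Function.Injective (Sum.map ι ι) :=
  Function.Injective.sumMap ι.injective ι.injective

theorem resL_apply (w : m ⊕ m → F) (c : l ⊕ l) : resL ι w c = w (Sum.map ι ι c) := rfl

theorem extL_apply (u : l ⊕ l → F) (c : l ⊕ l) : extL ι u (Sum.map ι ι c) = u c :=
  (sumMap_injective ι).extend_apply _ _ _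

theorem extL_apply' (u : l ⊕ l → F) (c : m ⊕ m) (hc : ¬ ∃ a, Sum.map ι ι a = c) :
    extL ι u c = 0 :=
  Function.extend_apply' _ _ _ hc

theorem resL_extL (u : l ⊕ l → F) : resL ι (extL ι u) = u := by
  ext c
  rw [resL_apply, extL_apply]

/-- extension of a representation by the identity on the remaining coordinates -/
noncomputable def extRep {W : Type u} [Group W] (τ : W →* Module.End F (l ⊕ l → F)) :
    W →* Module.End F (m ⊕ m → F) where
  toFun g := 1 - (extL ι).comp (resL ι) + (extL ι).comp ((τ g).comp (resL ι))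
  map_one' := by
    ext1 c
    ext w
    simp
  map_mul' a b := by
    apply LinearMap.ext
    intro w
    simp only [LinearMap.add_apply, LinearMap.sub_apply, Module.End.one_apply, LinearMap.comp_apply,
      Module.End.mul_apply, map_add, map_sub, resL_extL, map_mul]
    abel

theorem extRep_apply {W : Type u} [Group W] (τ : W →* Module.End F (l ⊕ l → F)) (g : W)
    (w : m ⊕ m → F) : extRep ι τ g w = w - extL ι (resL ι w) + extL ι (τ g (resL ι w)) := rfl

theorem resL_extRep {W : Type u} [Group W] (τ : W →* Module.End F (l ⊕ l → F)) (g : W)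
    (w : m ⊕ m → F) : resL ι (extRep ι τ g w) = τ g (resL ι w) := by
  rw [extRep_apply, map_add, map_sub, resL_extL, resL_extL]
  abel

theorem extRep_apply' {W : Type u} [Group W] (τ : W →* Module.End F (l ⊕ l → F)) (g : W)
    (w : m ⊕ m → F) (c : m ⊕ m) (hc : ¬ ∃ a, Sum.map ι ι a = c) : extRep ι τ g w c = w c := by
  rw [extRep_apply, Pi.add_apply, Pi.sub_apply, extL_apply' ι _ c hc, extL_apply' ι _ c hc]
  simp

theorem om_split [Fintype l] [Fintype m] [DecidableEq m] (a b : m ⊕ m → F) :
    om m a b = om l (resL ι a) (resL ι b) +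
      ∑ i ∈ Finset.univ.filter (fun i : m => i ∉ Set.range ι),
        (a (Sum.inr i) * b (Sum.inl i) - a (Sum.inl i) * b (Sum.inr i)) := by
  classical
  unfold om
  rw [← Finset.sum_filter_add_sum_filter_not Finset.univ (fun i : m => i ∈ Set.range ι)]
  congr 1
  have h1 : Finset.univ.filter (fun i : m => i ∈ Set.range ι) = Finset.univ.map ι := by
    ext i
    simp
  rw [h1, Finset.sum_map]
  rfl

include ι in
theorem extend_step {W : Type u} [Group W] [Fintype l] [DecidableEq l] [Fintype m] [DecidableEq m]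
    (f : W →* symplecticGroup l F) (hf : Function.Injective f) :
    ∃ f' : W →* symplecticGroup m F, Function.Injective f' := by
  let τ : W →* Module.End F (l ⊕ l → F) := (toEnd l).comp f
  have hτ : Function.Injective τ := (toEnd_injective l).comp hf
  have hinj : Function.Injective (extRep (m := m) ι τ) := by
    intro g h hgh
    apply hτ
    apply LinearMap.ext
    intro c
    have h1 := resL_extRep ι τ g (extL ι c)
    have h2 := resL_extRep ι τ h (extL ι c)
    rw [resL_extL] at h1 h2
    rw [← h1, ← h2, hgh]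
  refine ⟨ofEnd m (extRep ι τ) ?_, ofEnd_injective _ _ _ hinj⟩
  intro g a b
  rw [om_split ι, om_split ι a b, resL_extRep, resL_extRep]
  congr 1
  · exact om_toEnd l _ _ _
  · apply Finset.sum_congr rfl
    intro i hi
    have hi' : i ∉ Set.range ι := (Finset.mem_filter.mp hi).2
    have h1 : ¬ ∃ c, Sum.map ι ι c = Sum.inl i := by
      rintro ⟨(c | c), hc⟩
      · exact hi' ⟨c, Sum.inl.inj hc⟩
      · exact Sum.inr_ne_inl hc
    have h2 : ¬ ∃ c, Sum.map ι ι c = Sum.inr i := by
      rintro ⟨(c | c), hc⟩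
      · exact Sum.inl_ne_inr hc
      · exact hi' ⟨c, Sum.inr.inj hc⟩
    rw [extRep_apply' ι τ g a _ h1, extRep_apply' ι τ g a _ h2, extRep_apply' ι τ g b _ h1,
      extRep_apply' ι τ g b _ h2]

end Extend

end Cfsg.Agent.Lib.Helper35.LinDL
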