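import Mathlib
import Cfsg.Agent.Lib.Helper35.LinDLG
import Cfsg.Agent.Lib.Helper35.LinDLA

/-!
# A quaternion subgroup of `Sp_2(q)` and iterated wreath products in `Sp_{2n}(q)`
-/

set_option autoImplicit false

namespace Cfsg.Agent.Lib.Helper35.LinDL

open Module RegularWreathProduct Matrix

universe u v

/-- abstract lemma: two elements of order dividing 4 with `x y x = y` and `x² ≠ 1` generate a nonabelian
2-group -/
theorem exists_nonabelian_two_subgroup {G : Type u} [Group G] (x y : G) (hx : x ^ 4 = 1)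
    (hy : y ^ 4 = 1) (hxy : x * y * x = y) (hx2 : x * x ≠ 1) :
    ∃ D : Subgroup G, IsPGroup 2 D ∧ derivedSeries D 1 ≠ ⊥ := by
  have hz : ∀ g : G, g ^ 4 = 1 → IsPGroup 2 (Subgroup.zpowers g) := by
    intro g hg ⟨h, hh⟩
    obtain ⟨k, rfl⟩ := Subgroup.mem_zpowers_iff.mp hh
    refine ⟨2, Subtype.ext ?_⟩
    show (g ^ k) ^ (2 ^ 2) = 1
    rw [← zpow_natCast, ← _root_.zpow_mul, mul_comm, _root_.zpow_mul, zpow_natCast]
    norm_num [hg]
  have hc1 : y * x * y⁻¹ = x⁻¹ := by
    calc y * x * y⁻¹ = x⁻¹ * (x * y * x) * y⁻¹ := by group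
      _ = x⁻¹ := by rw [hxy]; group
  have hc2 : y⁻¹ * x * y = x⁻¹ := by
    have h1 : x = y * x⁻¹ * y⁻¹ := by
      have h0 : (y * x * y⁻¹)⁻¹ = x := by rw [hc1, inv_inv]
      calc x = (y * x * y⁻¹)⁻¹ := h0.symm
        _ = y * x⁻¹ * y⁻¹ := by group
    calc y⁻¹ * x * y = y⁻¹ * (y * x⁻¹ * y⁻¹) * y := by rw [← h1]
      _ = x⁻¹ := by group
  have hnorm : Subgroup.zpowers y ≤ Subgroup.normalizer (Subgroup.zpowers x : Set G) := by
    rw [Subgroup.zpowers_le, Subgroup.mem_normalizer_iff]
    intro h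
    constructor
    · intro hh
      obtain ⟨k, rfl⟩ := Subgroup.mem_zpowers_iff.mp hh
      rw [← conj_zpow, hc1]
      exact Subgroup.zpow_mem _ (Subgroup.inv_mem _ (Subgroup.mem_zpowers x)) k
    · intro hh
      obtain ⟨k, hk⟩ := Subgroup.mem_zpowers_iff.mp hh
      have h1 : h = y⁻¹ * x ^ k * y⁻¹⁻¹ := by rw [hk]; group
      rw [h1, ← conj_zpow, inv_inv, hc2]
      exact Subgroup.zpow_mem _ (Subgroup.inv_mem _ (Subgroup.mem_zpowers x)) k
  refine ⟨Subgroup.zpowers y ⊔ Subgroup.zpowers x,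
    IsPGroup.to_sup_of_normal_right' (hz y hy) (hz x hx) hnorm, ?_⟩
  intro hbot
  rw [derivedSeries_one, commutator_eq_bot_iff] at hbot
  have hxm : x ∈ Subgroup.zpowers y ⊔ Subgroup.zpowers x :=
    (le_sup_right : Subgroup.zpowers x ≤ _) (Subgroup.mem_zpowers x)
  have hym : y ∈ Subgroup.zpowers y ⊔ Subgroup.zpowers x :=
    (le_sup_left : Subgroup.zpowers y ≤ _) (Subgroup.mem_zpowers y)
  have hcomm := hbot.is_comm.comm (⟨x, hxm⟩ : ↥(Subgroup.zpowers y ⊔ Subgroup.zpowers x)) ⟨y, hym⟩
  have hcomm' : x * y = y * x := congrArg Subtype.val hcomm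
  apply hx2
  have h2 : y * (x * x) = y := by
    rw [← mul_assoc, ← hcomm', hxy]
  exact mul_eq_left.mp h2

variable {F : Type v} [Field F] [Fintype F]

theorem exists_base (hq : Odd (Fintype.card F)) :
    ∃ D : Subgroup (symplecticGroup Unit F), IsPGroup 2 D ∧ derivedSeries D 1 ≠ ⊥ := by
  obtain ⟨p, hp⟩ := CharP.exists F
  have hpp : p.Prime := (CharP.char_is_prime_or_zero F p).resolve_right (CharP.char_ne_zero_of_finite F p)
  have : NeZero p := ⟨hpp.ne_zero⟩
  obtain ⟨a, b, hab⟩ := CharP.sq_add_sq F p (-1)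
  have h2 : (2 : F) ≠ 0 := by
    intro h
    have h3 : ringChar F = 2 := by
      have : CharP F 2 := (CharP.charP_iff_prime_eq_zero Nat.prime_two).mpr (by exact_mod_cast h)
      exact ringChar.eq F 2
    have h4 := FiniteField.even_card_iff_char_two.mp h3
    have h5 := Nat.odd_iff.mp hq
    omega
  have hab' : (a : F) * a + (b : F) * b = -1 := by
    have := hab
    push_cast at this
    linear_combination this
  let I : Matrix (Unit ⊕ Unit) (Unit ⊕ Unit) F :=
    fromBlocks ((a : F) • 1) ((b : F) • 1) ((b : F) • 1) (-((a : F) • 1))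
  have hIT : Iᵀ = I := by
    simp [I, fromBlocks_transpose]
  have hII : I * I = -1 := by
    ext (i | i) (j | j) <;>
      simp [I, Matrix.mul_apply, Fintype.sum_sum_type] <;>
      first | linear_combination hab' | linear_combination -hab' | ring
  have hIJI : I * J Unit F * I = J Unit F := by
    ext (i | i) (j | j) <;>
      simp [I, J, Matrix.mul_apply, Fintype.sum_sum_type] <;>
      first | linear_combination hab' | linear_combination -hab' | ring
  have hImem : I ∈ symplecticGroup Unit F := by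
    rw [SymplecticGroup.mem_iff, hIT, hIJI]
  let x : symplecticGroup Unit F := ⟨I, hImem⟩
  let y : symplecticGroup Unit F := SymplecticGroup.symJ Unit F
  have hne : (-1 : Matrix (Unit ⊕ Unit) (Unit ⊕ Unit) F) ≠ 1 := by
    intro h
    have h3 := congrFun (congrFun h (Sum.inl ())) (Sum.inl ())
    simp only [Matrix.neg_apply, Matrix.one_apply_eq] at h3
    apply h2
    linear_combination -h3
  apply exists_nonabelian_two_subgroup x y
  · apply Subtype.ext
    show I ^ 4 = 1
    have : I ^ 4 = (I * I) * (I * I) := by noncomm_ring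
    rw [this, hII]
    simp
  · apply Subtype.ext
    show (J Unit F) ^ 4 = 1
    have : (J Unit F) ^ 4 = (J Unit F * J Unit F) * (J Unit F * J Unit F) := by noncomm_ring
    rw [this, J_squared]
    simp
  · apply Subtype.ext
    exact hIJI
  · intro h
    have h3 : I * I = 1 := congrArg Subtype.val h
    rw [hII] at h3
    exact hne h3

theorem exists_tower (hq : Odd (Fintype.card F)) (j : ℕ) :
    ∃ (W : Type v) (_ : Group W) (_ : Finite W) (l : Type) (_ : Fintype l) (_ : DecidableEq l)
      (f : W →* symplecticGroup l F), IsPGroup 2 W ∧ derivedSeries W (j + 1) ≠ ⊥ ∧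
        Function.Injective f ∧ Fintype.card l = 2 ^ j := by
  induction j with
  | zero =>
    obtain ⟨D, hD, hD1⟩ := exists_base hq
    exact ⟨D, inferInstance, inferInstance, Unit, inferInstance, inferInstance, D.subtype, hD, hD1,
      D.subtype_injective, by simp⟩
  | succ j ih =>
    obtain ⟨W, _, _, l, _, _, f, hW, hder, hf, hl⟩ := ih
    let Q := Multiplicative (ZMod 2)
    have hQ : Nat.card Q = 2 := by
      show Nat.card (Multiplicative (ZMod 2)) = 2
      rw [Nat.card_eq_fintype_card, Fintype.card_multiplicative, ZMod.card]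
    have hne : Nonempty l := by
      rw [← Fintype.card_pos_iff, hl]
      positivity
    obtain ⟨q0, hq0⟩ : ∃ q0 : Q, q0 ≠ 1 := by
      have : Nontrivial Q := by
        rw [← Finite.one_lt_card_iff_nontrivial, hQ]; norm_num
      exact exists_ne 1
    obtain ⟨f', hf'⟩ := wreath_step (Q := Q) f hf
    refine ⟨W ≀ᵣ Q, inferInstance, inferInstance, Q × l, inferInstance, inferInstance, f', ?_, ?_,
      hf', ?_⟩
    · obtain ⟨a, ha⟩ := IsPGroup.iff_card.mp hW
      apply IsPGroup.of_card (n := a * 2 + 1)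
      rw [RegularWreathProduct.card, ha, hQ]
      ring
    · intro h
      exact hder (Cfsg.Agent.S4014.wreath_derived q0 hq0 (j + 1) h)
    · rw [Fintype.card_prod, hl, ← Nat.card_eq_fintype_card, hQ]
      ring

theorem sp_lower (hq : Odd (Fintype.card F)) (n : ℕ) (hn : 1 ≤ n)
    (R : Sylow 2 ↥(symplecticGroup (Fin n) F)) :
    derivedSeries ↥(R : Subgroup ↥(symplecticGroup (Fin n) F)) (Nat.log 2 (2 * n)) ≠ ⊥ := by
  have h1 : Nat.log 2 (2 * n) = Nat.log 2 n + 1 := by
    rw [mul_comm, Nat.log_mul_base (by norm_num) (by omega)]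
  rw [h1]
  obtain ⟨W, _, _, l, _, _, f, hW, hder, hf, hl⟩ := exists_tower (F := F) hq (Nat.log 2 n)
  have hcard : Fintype.card l ≤ Fintype.card (Fin n) := by
    rw [hl, Fintype.card_fin]
    exact Nat.pow_log_le_self 2 (by omega)
  obtain ⟨ι⟩ := Function.Embedding.nonempty_of_card_le hcard
  obtain ⟨f1, hf1⟩ := extend_step ι f hf
  have hR : IsPGroup 2 f1.range := hW.of_surjective f1.rangeRestrict f1.rangeRestrict_surjective
  obtain ⟨Q, hQ⟩ := hR.exists_le_sylow
  let Φ : W →* ↥(R : Subgroup ↥(symplecticGroup (Fin n) F)) :=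
    (Sylow.equiv Q R).toMonoidHom.comp ((Subgroup.inclusion hQ).comp f1.rangeRestrict)
  have hΦ : Function.Injective Φ := by
    refine (Sylow.equiv Q R).injective.comp ((Subgroup.inclusion_injective hQ).comp ?_)
    exact MonoidHom.rangeRestrict_injective_iff.2 hf1
  intro h
  have h2 := map_derivedSeries_le_derivedSeries Φ (Nat.log 2 n + 1)
  rw [h, le_bot_iff, Subgroup.map_eq_bot_iff_of_injective _ hΦ] at h2
  exact hder h2

theorem sp_upper (hq : Odd (Fintype.card F)) (n : ℕ)
    (R : Subgroup ↥(symplecticGroup (Fin n) F)) (hR : IsPGroup 2 R) :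
    derivedSeries ↥R (Nat.log 2 (2 * n) + 1) = ⊥ := by
  have h2 : (2 : F) ≠ 0 := by
    intro h
    have h3 : ringChar F = 2 := by
      have : CharP F 2 := (CharP.charP_iff_prime_eq_zero Nat.prime_two).mpr (by exact_mod_cast h)
      exact ringChar.eq F 2
    have h4 := FiniteField.even_card_iff_char_two.mp h3
    have h5 := Nat.odd_iff.mp hq
    omega
  let K := AlgebraicClosure F
  have hpK : ((2 : ℕ) : K) ≠ 0 := by
    intro h
    apply h2
    apply (algebraMap F K).injective
    rw [map_zero, map_ofNat]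
    exact_mod_cast h
  let τ : R →* Module.End K (Fin n ⊕ Fin n → K) :=
    (MonoidHomClass.toMonoidHom (Matrix.toLinAlgEquiv' :
      Matrix (Fin n ⊕ Fin n) (Fin n ⊕ Fin n) K ≃ₐ[K] Module.End K (Fin n ⊕ Fin n → K))).comp
      (((algebraMap F K).mapMatrix :
        Matrix (Fin n ⊕ Fin n) (Fin n ⊕ Fin n) F →+* Matrix (Fin n ⊕ Fin n) (Fin n ⊕ Fin n) K).toMonoidHom.comp
        ((symplecticGroup (Fin n) F).subtype.comp R.subtype))
  have hτ : Function.Injective τ := by
    intro a b hab
    apply Subtype.ext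
    apply Subtype.ext
    have h1 := Matrix.toLinAlgEquiv'.injective hab
    exact Matrix.map_injective (algebraMap F K).injective h1
  have h1 := coprime_aux hpK (2 * n) R hR (Fin n ⊕ Fin n → K) τ (by
    rw [Module.finrank_fintype_fun_eq_card, Fintype.card_sum, Fintype.card_fin]
    omega)
  rwa [(MonoidHom.ker_eq_bot_iff τ).mpr hτ, le_bot_iff] at h1

end Cfsg.Agent.Lib.Helper35.LinDL
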